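import Cfsg.Agent.TwoGroups.NormalRankTwo.Count
import Cfsg.Agent.OddLocal.NilBasics

/-! Sectional rank at most four. -/

set_option autoImplicit false
set_option linter.unusedSectionVars false

namespace Cfsg.Agent.TwoGroups.NormalRankTwo

variable {S : Type*} [Group S] [Finite S]

/-- The action on value pairs of an element moving an involution of `A`. -/
def sigma (s : S) (X : S × S) : S × S := (s * X.1 * s⁻¹, s * X.1 * s⁻¹ * (s * X.2 * s⁻¹))

namespace Setup

variable {A U : Subgroup S} (F : Setup A U)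
include F

theorem exists_central (hne : U ≠ ⊥) : ∃ z ∈ U, z ≠ 1 ∧ ∀ s : S, s * z * s⁻¹ = z := by
  haveI : Fact (Nat.Prime 2) := ⟨Nat.prime_two⟩
  haveI : Group.IsNilpotent S := F.two.isNilpotent
  haveI := F.normal
  obtain ⟨z, hz, h1, hc⟩ := OddLocal.exists_ne_one_mem_center_of_normal U hne
  exact ⟨z, hz, h1, fun s => by rw [Subgroup.mem_center_iff.1 hc s, mul_inv_cancel_right]⟩

theorem mem_of_fixes_two {x y : S} (hx : x ∈ U) (hy : y ∈ U) (hx1 : x ≠ 1) (hy1 : y ≠ 1) (hxy : x ≠ y) {s : S}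
    (h1 : s * x * s⁻¹ = x) (h2 : s * y * s⁻¹ = y) : s ∈ Subgroup.centralizer (U : Set S) := by
  rw [Subgroup.mem_centralizer_iff]
  intro u hu
  have : s * u * s⁻¹ = u := by
    rcases F.four hx hy hx1 hy1 hxy hu with e | e | e | e <;> rw [e]
    · group
    · exact h1
    · exact h2
    · calc s * (x * y) * s⁻¹ = (s * x * s⁻¹) * (s * y * s⁻¹) := by group
        _ = _ := by rw [h1, h2]
  exact (mul_inv_eq_iff_eq_mul.1 this).symm

theorem moved {z : S} (hz : z ∈ U) (hz1 : z ≠ 1) (hc : ∀ s : S, s * z * s⁻¹ = z) {s : S}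
    (hs : s ∉ Subgroup.centralizer (U : Set S)) {u : S} (hu : u ∈ U) (hu1 : u ≠ 1) (huz : u ≠ z) :
    s * u * s⁻¹ = z * u := by
  rcases F.four hz hu hz1 hu1 huz.symm (F.conj_mem hu s) with e | e | e | e
  · exact absurd (conj_eq_one_iff.1 e) hu1
  · rw [← hc s] at e
    exact absurd (mul_left_cancel (mul_right_cancel e)) huz
  · exact absurd (F.mem_of_fixes_two hz hu hz1 hu1 huz.symm (hc s) e) hs
  · exact e

theorem mul_mem_centralizer {s s' : S} (hs : s ∉ Subgroup.centralizer (U : Set S))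
    (hs' : s' ∉ Subgroup.centralizer (U : Set S)) : s' * s ∈ Subgroup.centralizer (U : Set S) := by
  have hne : U ≠ ⊥ := by
    rintro rfl
    refine hs (Subgroup.mem_centralizer_iff.2 fun u hu => ?_)
    rw [SetLike.mem_coe, Subgroup.mem_bot] at hu
    simp [hu]
  obtain ⟨z, hz, hz1, hc⟩ := F.exists_central hne
  rw [Subgroup.mem_centralizer_iff]
  intro u hu
  have : s' * s * u * (s' * s)⁻¹ = u := by
    by_cases hu1 : u = 1
    · subst hu1; group
    by_cases huz : u = z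
    · subst huz; exact hc _
    calc s' * s * u * (s' * s)⁻¹ = s' * (s * u * s⁻¹) * s'⁻¹ := by group
      _ = s' * z * s'⁻¹ * (s' * u * s'⁻¹) := by rw [F.moved hz hz1 hc hs hu hu1 huz]; group
      _ = z * (z * u) := by rw [hc, F.moved hz hz1 hc hs' hu hu1 huz]
      _ = u := by rw [← mul_assoc, F.mul_self hz, one_mul]
  exact (mul_inv_eq_iff_eq_mul.1 this).symm

theorem four_le {z v : S} {a1 a2 : S} (hB : Big A U z v a1 a2) : Nat.card U = 4 := by
  classical
  haveI := Fintype.ofFinite U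
  refine le_antisymm F.card_le ?_
  have hzv : z * v ≠ 1 := fun e => hB.ne (by rw [mul_eq_one_iff_eq_inv.1 e, F.inv_eq (F.vmem hB)])
  have : ({1, z, v, z * v} : Finset S).card = 4 := by
    rw [Finset.card_insert_of_notMem, Finset.card_insert_of_notMem, Finset.card_insert_of_notMem,
      Finset.card_singleton]
    · simp [hB.ne1]
    · simp [hB.ne, hB.ne2]
    · simp [hB.ne1.symm, hB.ne2.symm, hzv.symm]
  have hle := Finset.card_le_card (show ({1, z, v, z * v} : Finset S) ⊆ (U : Set S).toFinset from fun w hw => by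
    simp only [Finset.mem_insert, Finset.mem_singleton] at hw
    rw [Set.mem_toFinset]
    rcases hw with rfl | rfl | rfl | rfl
    exacts [U.one_mem, F.zmem hB, F.vmem hB, U.mul_mem (F.zmem hB) (F.vmem hB)])
  rw [Nat.card_eq_fintype_card]
  simp only [Set.toFinset_card, SetLike.coe_sort_coe] at hle
  omega

variable {a1 a2 z v : S}

/-- The difference map of `sigma`. -/
def diff (L : Subgroup (S × S)) (hL : L ≤ U.prod U) (s : S) : L →* S × S :=
  MonoidHom.mk' (fun X => X.1 * sigma s X.1) fun X Y => by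
    obtain ⟨hx1, hx2⟩ := hL X.2
    obtain ⟨hy1, hy2⟩ := hL Y.2
    have hc : ∀ {p q r w : S}, p ∈ U → q ∈ U → r ∈ U → w ∈ U → p * q * (r * w) = p * r * (q * w) :=
      fun {p q r w} _ hq hr _ => by rw [mul_assoc, ← mul_assoc q r, F.comm hq hr, mul_assoc r, ← mul_assoc p]
    have e1 : ∀ {p q : S}, s * (p * q) * s⁻¹ = s * p * s⁻¹ * (s * q * s⁻¹) := fun {p q} => by group
    simp only [sigma, Subgroup.coe_mul, Prod.mk_mul_mk, Prod.fst_mul, Prod.snd_mul, Prod.ext_iff, e1]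
    refine ⟨hc hx1 hy1 (F.conj_mem hx1 s) (F.conj_mem hy1 s), ?_⟩
    rw [hc (F.conj_mem hx1 s) (F.conj_mem hy1 s) (F.conj_mem hx2 s) (F.conj_mem hy2 s),
      hc hx2 hy2 (U.mul_mem (F.conj_mem hx1 s) (F.conj_mem hx2 s)) (U.mul_mem (F.conj_mem hy1 s) (F.conj_mem hy2 s))]

theorem diff_ker {L : Subgroup (S × S)} (hL : L ≤ U.prod U) {s : S} {X : L} (hX : X ∈ (F.diff L hL s).ker) :
    sigma s X.1 = X.1 := by
  obtain ⟨hx1, hx2⟩ := hL X.2
  have h : X.1 * sigma s X.1 = 1 := hX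
  rw [eq_inv_of_mul_eq_one_right h]
  exact Prod.ext (F.inv_eq hx1) (F.inv_eq hx2)

theorem diff_ker_card_le {L : Subgroup (S × S)} (hL : L ≤ U.prod U) (s : S) :
    Nat.card (F.diff L hL s).ker ≤ 4 ∧
      (4 ≤ Nat.card (F.diff L hL s).ker → ∀ z ∈ U, s * z * s⁻¹ = z → ((1 : S), z) ∈ L) := by
  have hinj : Function.Injective (fun X : (F.diff L hL s).ker => (⟨X.1.1.2, (hL X.1.2).2⟩ : U)) := by
    intro X Y e
    have e2 : X.1.1.2 = Y.1.1.2 := congrArg Subtype.val e
    have hX := congrArg Prod.snd (F.diff_ker hL X.2)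
    have hY := congrArg Prod.snd (F.diff_ker hL Y.2)
    simp only [sigma] at hX hY
    rw [e2] at hX
    have : s * X.1.1.1 * s⁻¹ = s * Y.1.1.1 * s⁻¹ := mul_right_cancel (hX.trans hY.symm)
    exact Subtype.ext (Subtype.ext (Prod.ext (mul_left_cancel (mul_right_cancel this)) e2))
  have h1 := Nat.card_le_card_of_injective _ hinj
  refine ⟨h1.trans F.card_le, fun h4 z hz hzs => ?_⟩
  obtain ⟨X, hX⟩ := ((Nat.bijective_iff_injective_and_card _).2
    ⟨hinj, le_antisymm h1 (F.card_le.trans h4)⟩).2 ⟨z, hz⟩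
  have e2 : X.1.1.2 = z := congrArg Subtype.val hX
  have h := congrArg Prod.snd (F.diff_ker hL X.2)
  simp only [sigma, e2, hzs] at h
  rw [mul_eq_right, conj_eq_one_iff] at h
  have he : X.1.1 = (1, z) := Prod.ext h e2
  exact he ▸ X.1.2

theorem card_le_half {α : Type*} [Group α] {L M : Subgroup α} [Finite M] (h : L ≤ M) (hne : L ≠ M) :
    Nat.card L * 2 ≤ Nat.card M := by
  obtain ⟨k, hk⟩ := Subgroup.card_dvd_of_le h
  rcases k with _ | _ | k
  · simp at hk
    exact absurd hk (Nat.card_pos (α := M)).ne'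
  · exact absurd (Subgroup.eq_of_le_of_card_ge h (by omega)) hne
  · rw [hk]; exact Nat.mul_le_mul_left _ (by omega)

theorem code_sigma (hB : Big A U z v a1 a2) {g s : S} (hg : g ∈ Subgroup.centralizer (U : Set S))
    (hs : s ∉ Subgroup.centralizer (U : Set S)) : code a1 a2 (s * g * s⁻¹) = sigma s (code a1 a2 g) := by
  simp only [code, sigma]
  rw [F.conj_code_fst hB hg, F.conj_code_snd' hB hg]
  exact F.moved (F.zmem hB) hB.ne1 hB.central hs (F.vmem hB) hB.ne2 hB.ne.symm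

/-- The image of all elements centralising `U`. -/
theorem regular_fixed (hB : Big A U z v a1 a2) (W : Subgroup (S × S)) (hW : W ≤ U.prod U)
    (hcard : Nat.card W = 8) (himg : ∀ X, X ∈ W ↔ ∃ g ∈ Subgroup.centralizer (U : Set S), code a1 a2 g = X) :
    ∃ X ∈ W, Reg z v X ∧ X ≠ 1 ∧ ∀ g ∈ Subgroup.centralizer (U : Set S), code a1 a2 g = X →
      ∀ s : S, code a1 a2 (s * g * s⁻¹) = X := by
  have hz := F.zmem hB
  have hv := F.vmem hB
  by_cases hTS : ∀ s : S, s ∈ Subgroup.centralizer (U : Set S)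
  · suffices ∃ X ∈ W, Reg z v X ∧ X ≠ 1 by
      obtain ⟨X, hX, hr, h1⟩ := this
      exact ⟨X, hX, hr, h1, fun g hg e s => by rw [F.code_central hB hg (hTS s), e]⟩
    have hzv : z * v ≠ 1 := fun e => hB.ne (by rw [mul_eq_one_iff_eq_inv.1 e, F.inv_eq hv])
    have n1 : z * v ≠ z := fun e => hB.ne2 (mul_eq_left.1 e)
    have n2 : z * v ≠ v := fun e => hB.ne1 (mul_eq_right.1 e)
    have c1 : v * (z * v) = z := by rw [F.comm hz hv, ← mul_assoc, F.mul_self hv, one_mul]
    have c2 : z * v * z = v := by rw [F.comm (U.mul_mem hz hv) hz, ← mul_assoc, F.mul_self hz, one_mul]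
    set M := U.prod U
    set W' := W.subgroupOf M with hW'
    have hidx : W'.index = 2 := by
      have h := W'.card_mul_index
      rw [Nat.card_congr (Subgroup.subgroupOfEquivOfLe hW).toEquiv, hcard,
        Nat.card_congr (Subgroup.prodEquiv U U).toEquiv, Nat.card_prod, F.four_le hB] at h
      omega
    by_contra hcon
    push Not at hcon
    have hzvU := U.mul_mem hz hv
    have hout : ∀ (p q : S) (hp : p ∈ U) (hq : q ∈ U), Reg z v (p, q) → (p, q) ≠ 1 →
        (⟨(p, q), hp, hq⟩ : M) ∉ W' := fun p q hp hq hr h1 hmem =>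
      h1 (hcon _ (Subgroup.mem_subgroupOf.1 hmem) hr)
    have o1 := hout 1 z U.one_mem hz ⟨hB.ne1.symm, hB.ne, by
      show 1 * z ≠ z * v; rw [one_mul]; exact n1.symm⟩ (fun e => hB.ne1 (Prod.mk_eq_one.1 e).2)
    have o2 := hout v 1 hv U.one_mem ⟨hB.ne.symm, hB.ne2.symm, by
      show v * 1 ≠ z * v; rw [mul_one]; exact n2.symm⟩ (fun e => hB.ne2 (Prod.mk_eq_one.1 e).1)
    have o3 := hout (z * v) (z * v) hzvU hzvU ⟨n1, n2, by
      show z * v * (z * v) ≠ z * v; rw [F.mul_self hzvU]; exact hzv.symm⟩ (fun e => hzv (Prod.mk_eq_one.1 e).1)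
    have o4 := hout (z * v) z hzvU hz ⟨n1, hB.ne, by
      show z * v * z ≠ z * v; rw [c2]; exact n2.symm⟩ (fun e => hzv (Prod.mk_eq_one.1 e).1)
    have o5 := hout v (z * v) hv hzvU ⟨hB.ne.symm, n2, by
      show v * (z * v) ≠ z * v; rw [c1]; exact n1.symm⟩ (fun e => hB.ne2 (Prod.mk_eq_one.1 e).1)
    have h12 := (Subgroup.mul_mem_iff_of_index_two hidx).2 (iff_of_false o1 o2)
    have h34 := (Subgroup.mul_mem_iff_of_index_two hidx).2 (iff_of_false o3 o4)
    apply o5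
    have h := mul_mem h12 h34
    convert h using 1
    apply Subtype.ext
    change ((v, z * v) : S × S) = (1 * v, z * 1) * (z * v * (z * v), z * v * z)
    rw [F.mul_self hzvU, c2, Prod.mk_mul_mk, one_mul, mul_one, mul_one]
  · push Not at hTS
    obtain ⟨s, hs⟩ := hTS
    refine ⟨(1, z), ?_, ⟨hB.ne1.symm, hB.ne, ?_⟩, fun e => hB.ne1 (Prod.mk_eq_one.1 e).2,
      fun g hg e t => F.code_transvection hB hg e t⟩
    swap
    · show 1 * z ≠ z * v
      rw [one_mul]; exact fun e => hB.ne2 (mul_eq_left.1 e.symm)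
    set D := F.diff W hW s
    refine (F.diff_ker_card_le hW s).2 ?_ z hz (hB.central s)
    have hrange : D.range ≤ D.ker.map W.subtype := by
      rintro _ ⟨X, rfl⟩
      have hmem : X.1 * sigma s X.1 ∈ W := by
        obtain ⟨g, hg, e⟩ := (himg _).1 X.2
        refine W.mul_mem X.2 ((himg _).2 ⟨s * g * s⁻¹, ?_, by rw [F.code_sigma hB hg hs, e]⟩)
        haveI := F.normal
        exact (inferInstance : (Subgroup.centralizer (U : Set S)).Normal).conj_mem _ hg s
      refine ⟨⟨_, hmem⟩, MonoidHom.mem_ker.2 ?_, rfl⟩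
      obtain ⟨hx1, hx2⟩ := hW X.2
      change X.1 * sigma s X.1 * sigma s (X.1 * sigma s X.1) = 1
      have hfix : ∀ u ∈ U, s * (s * u * s⁻¹) * s⁻¹ = u := fun u hu => by
        calc s * (s * u * s⁻¹) * s⁻¹ = s * s * u * (s * s)⁻¹ := by group
          _ = u := F.fixes (F.mul_mem_centralizer hs hs) hu
      obtain ⟨⟨p, q⟩, _⟩ := X
      have hp : s * p * s⁻¹ ∈ U := F.conj_mem hx1 s
      have hq : s * q * s⁻¹ ∈ U := F.conj_mem hx2 s
      have ea : s * (p * (s * p * s⁻¹)) * s⁻¹ = s * p * s⁻¹ * p :=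
        calc s * (p * (s * p * s⁻¹)) * s⁻¹ = s * p * s⁻¹ * (s * (s * p * s⁻¹) * s⁻¹) := by group
          _ = _ := by rw [hfix p hx1]
      have eb : s * (q * (s * p * s⁻¹ * (s * q * s⁻¹))) * s⁻¹ = s * q * s⁻¹ * (p * q) :=
        calc s * (q * (s * p * s⁻¹ * (s * q * s⁻¹))) * s⁻¹
            = s * q * s⁻¹ * ((s * (s * p * s⁻¹) * s⁻¹) * (s * (s * q * s⁻¹) * s⁻¹)) := by group
          _ = _ := by rw [hfix p hx1, hfix q hx2]
      simp only [sigma, Prod.fst_mul, Prod.snd_mul, ea, eb, Prod.ext_iff, Prod.fst_one, Prod.snd_one]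
      refine ⟨?_, ?_⟩
      · rw [F.comm hp hx1]; exact F.mul_self (U.mul_mem hx1 hp)
      · have k : s * p * s⁻¹ * p * (s * q * s⁻¹ * (p * q)) = q * (s * p * s⁻¹ * (s * q * s⁻¹)) := by
          calc s * p * s⁻¹ * p * (s * q * s⁻¹ * (p * q))
              = s * p * s⁻¹ * (p * (s * q * s⁻¹)) * (p * q) := by group
            _ = s * p * s⁻¹ * ((s * q * s⁻¹) * p) * (p * q) := by rw [F.comm hx1 hq]
            _ = s * p * s⁻¹ * (s * q * s⁻¹) * (p * p) * q := by group
            _ = _ := by rw [F.mul_self hx1, mul_one, F.comm (U.mul_mem hp hq) hx2]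
        rw [k]
        exact F.mul_self (U.mul_mem hx2 (U.mul_mem hp hq))
    have h := Subgroup.card_eq_card_quotient_mul_card_subgroup D.ker
    rw [Nat.card_congr (QuotientGroup.quotientKerEquivRange D).toEquiv, hcard] at h
    have h' := Subgroup.card_le_of_le hrange
    rw [Nat.card_congr (Subgroup.equivMapOfInjective D.ker W.subtype W.subtype_injective).toEquiv.symm] at h'
    have hk4 := (F.diff_ker_card_le hW s).1
    change Nat.card D.ker ≤ 4 at hk4
    show 4 ≤ Nat.card D.ker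
    interval_cases (Nat.card D.ker) <;> omega

end Setup

/-- The sections of exponent two of a `2`-group without normal elementary subgroups of order eight. -/
theorem section_card_le (h2 : IsPGroup 2 S)
    (h : ∀ E : Subgroup S, E.Normal → (∀ a ∈ E, ∀ b ∈ E, a * b = b * a) → (∀ a ∈ E, a ^ 2 = 1) → Nat.card E ≤ 4)
    (H : Subgroup S) {Q : Type*} [Group Q] (ψ : H →* Q) (hψ : Function.Surjective ψ) (hQ : ∀ q : Q, q ^ 2 = 1) :
    Nat.card Q ≤ 16 := by
  classical
  haveI : Finite Q := Finite.of_surjective ψ hψ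
  obtain ⟨A, U, F⟩ := exists_setup h2 h
  have hcomm := mul_self_of_exp_two hQ
  have hT : (Subgroup.centralizer (U : Set S)).Normal := by haveI := F.normal; infer_instance
  set r := Nat.card (Setup.sect H ψ U).range with hr
  have hone : H ≤ Subgroup.centralizer (U : Set S) → Nat.card Q ≤ r := fun hle => by
    refine (Nat.card_congr Subgroup.topEquiv.toEquiv).symm.le.trans (Subgroup.card_le_of_le ?_)
    rintro q -
    obtain ⟨x, rfl⟩ := hψ q
    exact ⟨⟨x.1, x.2, hle x.2⟩, rfl⟩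
  have htwo : ∀ s : H, s.1 ∉ Subgroup.centralizer (U : Set S) → Nat.card Q ≤ r * 2 := fun s hs => by
    have : Nat.card ((Setup.sect H ψ U).range × Bool) = r * 2 := by rw [Nat.card_prod, hr]; simp
    rw [← this]
    refine Nat.card_le_card_of_surjective (fun p => if p.2 then p.1.1 * ψ s else p.1.1) fun q => ?_
    obtain ⟨x, rfl⟩ := hψ q
    by_cases hx : x.1 ∈ Subgroup.centralizer (U : Set S)
    · exact ⟨(⟨_, ⟨⟨x.1, x.2, hx⟩, rfl⟩⟩, false), rfl⟩
    · have hxs : x.1 * (s.1)⁻¹ ∈ Subgroup.centralizer (U : Set S) :=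
        F.mul_mem_centralizer (fun e => hs (inv_inv s.1 ▸ inv_mem e)) hx
      refine ⟨(⟨_, ⟨⟨x.1 * (s.1)⁻¹, H.mul_mem x.2 (H.inv_mem s.2), hxs⟩, rfl⟩⟩, true), ?_⟩
      simp only [Setup.sect, MonoidHom.comp_apply, if_true, ← map_mul]
      congr 1
      exact Subtype.ext (inv_mul_cancel_right x.1 s.1)
  have hzero : ∀ (s : H) (g : Setup.part U H),
      (⟨g.1 * (s.1 * g.1 * (s.1)⁻¹), H.mul_mem g.2.1 (H.mul_mem (H.mul_mem s.2 g.2.1) (H.inv_mem s.2)),
        mul_mem g.2.2 (hT.conj_mem _ g.2.2 _)⟩ : Setup.part U H) ∈ (Setup.sect H ψ U).ker := fun s g => by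
    rw [MonoidHom.mem_ker]
    change ψ (⟨g.1, g.2.1⟩ * (s * ⟨g.1, g.2.1⟩ * s⁻¹)) = 1
    rw [map_mul, map_mul, map_mul, map_inv, hcomm (ψ s), mul_inv_cancel_right, ← pow_two, hQ]
  by_cases hI : ∃ a0 ∈ A, ∀ a ∈ A, a ∈ U ∨ a * a0 ∈ U
  · obtain ⟨a0, ha0, hspan⟩ := hI
    have hgen : Gen A U a0 1 := ⟨ha0, A.one_mem, fun a ha => (hspan a ha).imp_right Or.inl⟩
    set φ := F.act a0 1 H hgen.mem1 hgen.mem2
    have hP := F.card_P_le H ψ hgen hQ
    have hex := exchange φ (Setup.sect H ψ U)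
    have hL2 : ∀ X : φ.range, X.1.2 = 1 := by
      rintro ⟨_, g, rfl⟩
      exact F.phi_involution g.2.2 U.one_mem
    have hL1 : ∀ X : φ.range, X.1.1 ∈ U := by
      rintro ⟨_, g, rfl⟩
      exact F.phi_mem g.2.2 ha0
    have hinj : Function.Injective (fun X : φ.range => (⟨X.1.1, hL1 X⟩ : U)) := fun X Y e =>
      Subtype.ext (Prod.ext (congrArg Subtype.val e) ((hL2 X).trans (hL2 Y).symm))
    have hL : Nat.card φ.range ≤ 4 := (Nat.card_le_card_of_injective _ hinj).trans F.card_le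
    have hZ : 0 < Nat.card ((Setup.sect H ψ U).ker.map φ) := Nat.card_pos
    rw [← hr] at hex
    by_cases hHT : H ≤ Subgroup.centralizer (U : Set S)
    · have h1 := hone hHT
      have := Nat.mul_le_mul hL hP
      nlinarith
    obtain ⟨s, hsH, hs⟩ := Set.not_subset.1 hHT
    have h1 := htwo ⟨s, hsH⟩ hs
    by_cases hL' : Nat.card φ.range ≤ 2
    · have := Nat.mul_le_mul hL' hP
      nlinarith
    have hZ2 : 2 ≤ Nat.card ((Setup.sect H ψ U).ker.map φ) := by
      by_contra hlt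
      have hbot : (Setup.sect H ψ U).ker.map φ = ⊥ := Subgroup.eq_bot_of_card_eq _ (by omega)
      have hfix : ∀ X : φ.range, s * X.1.1 * s⁻¹ = X.1.1 := by
        rintro ⟨_, g, rfl⟩
        have hk := Subgroup.mem_map_of_mem φ (hzero ⟨s, hsH⟩ g)
        rw [hbot, Subgroup.mem_bot] at hk
        have hgs := hT.conj_mem _ g.2.2 s
        have e : phi (s * g.1 * s⁻¹) a0 = s * phi g.1 a0 * s⁻¹ := by
          refine F.phi_conj_value g.2.2 ha0 ha0 ?_
          rcases hspan _ (F.ker.normal.conj_mem _ ha0 s) with h' | h'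
          · have : a0 ∈ U := by
              have := F.conj_mem h' s⁻¹
              rwa [show s⁻¹ * (s * a0 * s⁻¹) * s⁻¹⁻¹ = a0 by group] at this
            exact U.mul_mem h' this
          · exact h'
        have h0 : phi (g.1 * (s * g.1 * s⁻¹)) a0 = 1 := congrArg Prod.fst hk
        rw [F.phi_mul_left g.2.2 hgs ha0, e] at h0
        change s * phi g.1 a0 * s⁻¹ = phi g.1 a0
        rw [eq_inv_of_mul_eq_one_right h0, F.inv_eq (F.phi_mem g.2.2 ha0)]
      haveI := Fintype.ofFinite φ.range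
      have h3 : 2 < (Finset.univ : Finset φ.range).card := by
        rw [Finset.card_univ, ← Nat.card_eq_fintype_card]; omega
      obtain ⟨X, Y, W, -, -, -, hXY, hXW, hYW⟩ := Finset.two_lt_card_iff.1 h3
      have hne : ∀ X' Y' : φ.range, X' ≠ Y' → X'.1.1 ≠ Y'.1.1 := fun X' Y' hne e => hne (hinj (Subtype.ext e))
      have key : ∀ X' Y' : φ.range, X' ≠ Y' → X'.1.1 ≠ 1 → Y'.1.1 ≠ 1 → False := fun X' Y' hn h1' h2' =>
        hs (F.mem_of_fixes_two (hL1 X') (hL1 Y') h1' h2' (hne _ _ hn) (hfix X') (hfix Y'))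
      by_cases hX1 : X.1.1 = 1
      · exact key Y W hYW (fun e => hne _ _ hXY (hX1.trans e.symm)) (fun e => hne _ _ hXW (hX1.trans e.symm))
      by_cases hY1 : Y.1.1 = 1
      · exact key X W hXW hX1 (fun e => hne _ _ hYW (hY1.trans e.symm))
      exact key X Y hXY hX1 hY1
    have := Nat.mul_le_mul hL hP
    nlinarith
  push Not at hI
  obtain ⟨a, ha, haU, -⟩ := hI 1 A.one_mem
  obtain ⟨b, hb, hbU, hab⟩ := hI a ha
  have hsa : a ^ 2 ≠ 1 := fun e => haU ((F.mem a).2 ⟨ha, e⟩)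
  have hsb : b ^ 2 ≠ 1 := fun e => hbU ((F.mem b).2 ⟨hb, e⟩)
  have hsab : a ^ 2 ≠ b ^ 2 := fun e => hab (F.mul_mem_of_sq_eq hb ha e.symm)
  obtain ⟨z, hz, hz1, hzc⟩ := F.exists_central (fun e => hsa (by simpa [e] using F.sq_mem ha))
  obtain ⟨a1, ha1, hs1⟩ : ∃ a1 ∈ A, a1 ^ 2 = z := by
    rcases F.four (F.sq_mem ha) (F.sq_mem hb) hsa hsb hsab hz with e | e | e | e
    · exact absurd e hz1
    · exact ⟨a, ha, e.symm⟩
    · exact ⟨b, hb, e.symm⟩
    · exact ⟨a * b, A.mul_mem ha hb, by rw [(show Commute a b from F.ker.comm a ha b hb).mul_pow, e]⟩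
  obtain ⟨a2, ha2, hs2⟩ : ∃ a2 ∈ A, a2 ^ 2 ≠ 1 ∧ a2 ^ 2 ≠ z := by
    by_cases e : a ^ 2 = z
    · exact ⟨b, hb, hsb, fun e' => hsab (e.trans e'.symm)⟩
    · exact ⟨a, ha, hsa, e⟩
  have hB : Big A U z (a2 ^ 2) a1 a2 := ⟨ha1, ha2, hs1, rfl, hz1, hs2.1, hs2.2.symm, hzc⟩
  generalize hvdef : a2 ^ 2 = v at hB
  have hgen := F.gen hB
  set φ := F.act a1 a2 H hgen.mem1 hgen.mem2 with hφ
  have hP := F.card_P_le H ψ hgen hQ
  have hex := exchange φ (Setup.sect H ψ U)
  rw [← hr] at hex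
  set P := Nat.card (φ.ker.map (Setup.sect H ψ U)) with hPdef
  have hLU : φ.range ≤ U.prod U := by
    rintro _ ⟨g, rfl⟩
    exact ⟨F.phi_mem g.2.2 hgen.mem1, F.phi_mem g.2.2 hgen.mem2⟩
  by_contra hcon
  push Not at hcon
  obtain ⟨k, hk⟩ := two_pow hQ
  have hk5 : 32 ≤ Nat.card Q := by
    have : 5 ≤ k := by
      by_contra hlt
      push Not at hlt
      interval_cases k <;> omega
    rw [hk]
    exact le_trans (by norm_num) (Nat.pow_le_pow_right (by norm_num) this)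
  suffices hlift : ∃ x : Setup.part U H, P = 4 ∧ Reg z v (code a1 a2 x.1) ∧ code a1 a2 x.1 ≠ 1 ∧
      ∀ t ∈ Subgroup.centralizer (U : Set S), code a1 a2 t = code a1 a2 x.1 →
        ∀ s : S, code a1 a2 (s * t * s⁻¹) = code a1 a2 x.1 by
    obtain ⟨x, hP4, hxr, hx1, hxfix⟩ := hlift
    obtain ⟨t, ht, ht2, htX⟩ := F.lift_of_four H ψ hgen hQ hP4 hB x hxr
    exact F.false_of_fixed hB ht ht2 (htX ▸ hxr) (htX ▸ hx1) fun s => (hxfix t ht htX s).trans htX.symm
  by_cases hHT : H ≤ Subgroup.centralizer (U : Set S)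
  · have h1 := hone hHT
    have hZ : 0 < Nat.card ((Setup.sect H ψ U).ker.map φ) := Nat.card_pos
    set code' : (Subgroup.centralizer (U : Set S)) →* S × S :=
      MonoidHom.mk' (fun g => code a1 a2 g.1) fun g g' => F.code_mul hgen.mem1 hgen.mem2 g.2 g'.2
    have hW : code'.range ≤ U.prod U := by
      rintro _ ⟨g, rfl⟩
      exact ⟨F.phi_mem g.2 hgen.mem1, F.phi_mem g.2 hgen.mem2⟩
    have hLW : φ.range ≤ code'.range := by
      rintro _ ⟨g, rfl⟩
      exact ⟨⟨g.1, g.2.2⟩, rfl⟩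
    have hM : Nat.card (U.prod U) = 16 := by
      rw [Nat.card_congr (Subgroup.prodEquiv U U).toEquiv, Nat.card_prod, F.four_le hB]
    have hW8 : Nat.card code'.range * 2 ≤ 16 := hM ▸ Setup.card_le_half F hW (fun e => F.not_full hB fun p hp q hq => by
      have hpq : ((p, q) : S × S) ∈ code'.range := e ▸ ⟨hp, hq⟩
      obtain ⟨g, hg⟩ := hpq
      exact ⟨g.1, g.2, hg⟩)
    have hLW' := Subgroup.card_le_of_le hLW
    have h32 : 32 ≤ Nat.card φ.range * P := by nlinarith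
    have hL8 : Nat.card φ.range = 8 := by nlinarith
    have hP4 : P = 4 := by rw [hL8] at h32; omega
    have heq : φ.range = code'.range := Subgroup.eq_of_le_of_card_ge hLW (by omega)
    obtain ⟨X, hX, hXr, hX1, hXfix⟩ := F.regular_fixed hB φ.range hLU hL8 fun X => by
      rw [heq]; exact ⟨fun ⟨g, e⟩ => ⟨g.1, g.2, e⟩, fun ⟨g, hg, e⟩ => ⟨⟨g, hg⟩, e⟩⟩
    obtain ⟨x, rfl⟩ := hX
    exact ⟨x, hP4, hXr, hX1, fun t ht e s => hXfix t ht e s⟩
  obtain ⟨s, hsH, hs⟩ := Set.not_subset.1 hHT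
  have h1 := htwo ⟨s, hsH⟩ hs
  set D := F.diff φ.range hLU s
  have hDZ : D.range ≤ (Setup.sect H ψ U).ker.map φ := by
    rintro _ ⟨⟨_, g, rfl⟩, rfl⟩
    refine ⟨_, hzero ⟨s, hsH⟩ g, ?_⟩
    change code a1 a2 (g.1 * (s * g.1 * s⁻¹)) = code a1 a2 g.1 * sigma s (code a1 a2 g.1)
    rw [F.code_mul hgen.mem1 hgen.mem2 g.2.2 (hT.conj_mem _ g.2.2 s), F.code_sigma hB g.2.2 hs]
  have hL : Nat.card φ.range = Nat.card D.range * Nat.card D.ker := by
    rw [← Nat.card_congr (QuotientGroup.quotientKerEquivRange D).toEquiv]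
    exact Subgroup.card_eq_card_quotient_mul_card_subgroup _
  obtain ⟨hker, hmemL⟩ := F.diff_ker_card_le hLU s
  have hDpos : 0 < Nat.card D.range := Nat.card_pos
  have hle : r ≤ Nat.card D.ker * P := by
    refine Nat.le_of_mul_le_mul_right (?_ : r * Nat.card D.range ≤ _ * Nat.card D.range) hDpos
    calc r * Nat.card D.range ≤ r * Nat.card ((Setup.sect H ψ U).ker.map φ) :=
          Nat.mul_le_mul_left _ (Subgroup.card_le_of_le hDZ)
      _ = Nat.card D.range * Nat.card D.ker * P := by rw [hex, hL]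
      _ = _ := by ring
  have hP4 : P = 4 := by nlinarith
  have hk4 : 4 ≤ Nat.card D.ker := by rw [hP4] at hle; omega
  obtain ⟨x, hx⟩ := hmemL hk4 z hz (hzc s)
  have hx' : code a1 a2 x.1 = (1, z) := hx
  refine ⟨x, hP4, ?_, ?_, fun t ht e u => ?_⟩
  · rw [hx']
    refine ⟨hz1.symm, hB.ne, ?_⟩
    show 1 * z ≠ z * v
    rw [one_mul]; exact fun e => hB.ne2 (mul_eq_left.1 e.symm)
  · rw [hx']; exact fun e => hz1 (Prod.mk_eq_one.1 e).2
  · rw [F.code_transvection hB ht (e.trans hx') u, hx']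

end Cfsg.Agent.TwoGroups.NormalRankTwo
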