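import Mathlib

/-! 2-groups without normal elementary abelian subgroups of order 8: a maximal normal abelian subgroup of
exponent 4, its centraliser, and squaring. -/

set_option autoImplicit false
set_option linter.unusedSectionVars false

namespace Cfsg.Agent.TwoGroups.NormalRankTwo

variable {S : Type*} [Group S] [Finite S]

/-- The data: a normal abelian subgroup of exponent dividing four which contains every element of order at most
four centralising it. -/
structure Kernel (A : Subgroup S) : Prop where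
  normal : A.Normal
  comm : ∀ a ∈ A, ∀ b ∈ A, a * b = b * a
  exp : ∀ a ∈ A, a ^ 4 = 1
  self : ∀ x ∈ Subgroup.centralizer (A : Set S), x ^ 4 = 1 → x ∈ A

theorem exists_kernel (h2 : IsPGroup 2 S) : ∃ A : Subgroup S, Kernel A := by
  classical
  haveI : Fact (Nat.Prime 2) := ⟨Nat.prime_two⟩
  obtain ⟨A, ⟨hAn, hAc, hAe⟩, hAmax⟩ := Set.Finite.exists_maximal (Set.toFinite
    {A : Subgroup S | A.Normal ∧ (∀ a ∈ A, ∀ b ∈ A, a * b = b * a) ∧ ∀ a ∈ A, a ^ 4 = 1})
    ⟨⊥, inferInstance, fun a ha b hb => by rw [Subgroup.mem_bot.1 ha, Subgroup.mem_bot.1 hb],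
      fun a ha => by rw [Subgroup.mem_bot.1 ha, one_pow]⟩
  refine ⟨A, hAn, hAc, hAe, ?_⟩
  haveI := hAn
  by_contra hcon
  push Not at hcon
  obtain ⟨x₀, hx₀C, hx₀4, hx₀A⟩ := hcon
  haveI : Group.IsNilpotent (S ⧸ A) := (h2.to_quotient A).isNilpotent
  obtain ⟨N, hN⟩ := Group.IsNilpotent.nilpotent (S ⧸ A)
  set π := QuotientGroup.mk' A
  have hπ : ∀ x : S, π x = 1 ↔ x ∈ A := fun x => QuotientGroup.eq_one_iff x
  set Pm : ℕ → Prop := fun i => ∃ y ∈ Subgroup.centralizer (A : Set S), y ^ 4 = 1 ∧ y ∉ A ∧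
    π y ∈ Subgroup.upperCentralSeries (S ⧸ A) i
  have hex : ∃ i, Pm i := ⟨N, x₀, hx₀C, hx₀4, hx₀A, by rw [hN]; trivial⟩
  set i := Nat.find hex with hi
  obtain ⟨y₀, hy₀C, hy₀4, hy₀A, hy₀i⟩ := Nat.find_spec hex
  obtain ⟨y, hyC, hy4, hyA, hy2, hyi⟩ : ∃ y ∈ Subgroup.centralizer (A : Set S), y ^ 4 = 1 ∧ y ∉ A ∧ y ^ 2 ∈ A ∧
      π y ∈ Subgroup.upperCentralSeries (S ⧸ A) i := by
    by_cases h : y₀ ^ 2 ∈ A
    · exact ⟨y₀, hy₀C, hy₀4, hy₀A, h, hy₀i⟩
    · refine ⟨y₀ ^ 2, pow_mem hy₀C 2, ?_, h, ?_, ?_⟩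
      · rw [← pow_mul, show 2 * 4 = 4 * 2 from rfl, pow_mul, hy₀4, one_pow]
      · rw [← pow_mul, show 2 * 2 = 4 from rfl, hy₀4]; exact A.one_mem
      · rw [map_pow]; exact pow_mem hy₀i 2
  obtain ⟨j, hj⟩ : ∃ j, i = j + 1 := by
    refine ⟨i - 1, (Nat.succ_pred_eq_of_pos (Nat.pos_of_ne_zero fun h0 => hyA ?_)).symm⟩
    rw [h0, Subgroup.upperCentralSeries_zero, Subgroup.mem_bot, hπ] at hyi
    exact hyi
  have hC : ∀ {c}, c ∈ Subgroup.centralizer (A : Set S) → ∀ a ∈ A, a * c = c * a := fun hc a ha =>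
    Subgroup.mem_centralizer_iff.1 hc a ha
  haveI hCn : (Subgroup.centralizer (A : Set S)).Normal := inferInstance
  have hd : ∀ s : S, y⁻¹ * (s * y * s⁻¹) ∈ A := by
    intro s
    by_contra hdA
    set z := s * y * s⁻¹ with hz
    set d := y⁻¹ * z with hddef
    have hzC : z ∈ Subgroup.centralizer (A : Set S) := hCn.conj_mem _ hyC s
    have hdC : d ∈ Subgroup.centralizer (A : Set S) := mul_mem (inv_mem hyC) hzC
    have hdj : π d ∈ Subgroup.upperCentralSeries (S ⧸ A) j := by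
      rw [hj, Subgroup.mem_upperCentralSeries_succ_iff] at hyi
      have hyi' : π y⁻¹ ∈ Subgroup.upperCentralSeries (S ⧸ A) (j + 1) := by
        rw [map_inv]; exact inv_mem (Subgroup.mem_upperCentralSeries_succ_iff.2 hyi)
      rw [Subgroup.mem_upperCentralSeries_succ_iff] at hyi'
      have := hyi' (π s)
      simpa [hddef, hz, map_mul, mul_assoc, commutatorElement_def] using this
    have hz2 : z ^ 2 ∈ A := by rw [hz, conj_pow]; exact hAn.conj_mem _ hy2 s
    set a0 := z ^ 2 * (y ^ 2)⁻¹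
    have ha0 : a0 ∈ A := A.mul_mem hz2 (A.inv_mem hy2)
    have ha02 : a0 ^ 2 = 1 := by
      have hcm : Commute (z ^ 2) (y ^ 2)⁻¹ := hAc _ hz2 _ (A.inv_mem hy2)
      rw [hcm.mul_pow, inv_pow, ← pow_mul, ← pow_mul, show 2 * 2 = 4 from rfl, hy4, hz, conj_pow, hy4]
      simp
    have hrel : y * d * y⁻¹ = d⁻¹ * a0 := by
      have e : z⁻¹ * y * z ^ 2 = z⁻¹ * z ^ 2 * y := by
        rw [mul_assoc, mul_assoc, ← hC hyC _ hz2]
      simp only [a0, hddef]
      rw [show (y⁻¹ * z)⁻¹ * (z ^ 2 * (y ^ 2)⁻¹) = z⁻¹ * y * z ^ 2 * (y ^ 2)⁻¹ by group, e]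
      group
    -- the last power outside `A`
    obtain ⟨M, hM⟩ := h2 d
    have hexm : ∃ m, d ^ 2 ^ m ∈ A := ⟨M, by rw [hM]; exact A.one_mem⟩
    obtain ⟨m, hm⟩ : ∃ m, Nat.find hexm = m + 1 := by
      refine ⟨Nat.find hexm - 1, (Nat.succ_pred_eq_of_pos (Nat.pos_of_ne_zero fun h0 => hdA ?_)).symm⟩
      have := Nat.find_spec hexm
      rwa [h0, pow_zero, pow_one] at this
    set e := d ^ 2 ^ m with he
    have heA : e ∉ A := Nat.find_min hexm (by omega)
    have he2 : e ^ 2 ∈ A := by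
      have := Nat.find_spec hexm
      rw [hm, pow_succ, pow_mul] at this
      exact this
    have hee : y * e ^ 2 * y⁻¹ = (e ^ 2)⁻¹ := by
      have hcd : Commute d⁻¹ a0 := Commute.inv_left (hC hdC a0 ha0).symm
      rw [he, ← pow_mul, ← conj_pow, hrel, hcd.mul_pow, inv_pow, mul_comm (2 ^ m) 2, pow_mul a0, ha02, one_pow,
        mul_one]
    have he4 : e ^ 4 = 1 := by
      rw [show y * e ^ 2 * y⁻¹ = e ^ 2 by rw [← hC hyC _ he2]; group] at hee
      rw [show (4 : ℕ) = 2 + 2 from rfl, pow_add]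
      nth_rewrite 2 [hee]
      exact mul_inv_cancel _
    have : i ≤ j := Nat.find_min' hex ⟨e, pow_mem hdC _, he4, heA, by rw [map_pow]; exact pow_mem hdj _⟩
    omega
  -- enlarge `A`
  let B : Subgroup S :=
    { carrier := {b | b ∈ A ∨ y⁻¹ * b ∈ A}
      one_mem' := Or.inl A.one_mem
      mul_mem' := by
        rintro a b (ha | ha) (hb | hb)
        · exact Or.inl (A.mul_mem ha hb)
        · refine Or.inr ?_
          have := A.mul_mem ha hb
          rwa [show a * (y⁻¹ * b) = y⁻¹ * (a * b) by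
            rw [← mul_assoc, ← mul_assoc, hC (inv_mem hyC) a ha]] at this
        · exact Or.inr (by simpa [mul_assoc] using A.mul_mem ha hb)
        · refine Or.inl ?_
          have h1 := A.mul_mem (A.mul_mem hy2 ha) hb
          rwa [show y ^ 2 * (y⁻¹ * a) * (y⁻¹ * b) = a * b by
            have := hC hyC _ ha
            calc y ^ 2 * (y⁻¹ * a) * (y⁻¹ * b) = y * (y * (y⁻¹ * a)) * (y⁻¹ * b) := by group
              _ = y * ((y⁻¹ * a) * y) * (y⁻¹ * b) := by rw [this]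
              _ = a * b := by group] at h1
      inv_mem' := by
        rintro a (ha | ha)
        · exact Or.inl (A.inv_mem ha)
        · refine Or.inr ?_
          have h1 := A.mul_mem (A.inv_mem hy2) (A.inv_mem ha)
          rwa [show (y ^ 2)⁻¹ * (y⁻¹ * a)⁻¹ = y⁻¹ * a⁻¹ by
            have := hC hyC _ ha
            calc (y ^ 2)⁻¹ * (y⁻¹ * a)⁻¹ = y⁻¹ * ((y⁻¹ * a) * y)⁻¹ := by group
              _ = y⁻¹ * (y * (y⁻¹ * a))⁻¹ := by rw [this]
              _ = y⁻¹ * a⁻¹ := by group] at h1 }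
  have hBA : A ≤ B := fun a ha => Or.inl ha
  have hyB : y ∈ B := Or.inr (by rw [inv_mul_cancel]; exact A.one_mem)
  have hBn : B.Normal := ⟨fun b hb s => by
    rcases hb with hb | hb
    · exact hBA (hAn.conj_mem _ hb s)
    · have h1 : s * (y⁻¹ * b) * s⁻¹ ∈ B := hBA (hAn.conj_mem _ hb s)
      have h2' : s * y * s⁻¹ ∈ B := by
        have := B.mul_mem hyB (hBA (hd s))
        rwa [mul_inv_cancel_left] at this
      have := B.mul_mem h2' h1
      rwa [show s * y * s⁻¹ * (s * (y⁻¹ * b) * s⁻¹) = s * b * s⁻¹ by group] at this⟩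
  have hBC : ∀ b ∈ B, ∀ a ∈ A, a * b = b * a := fun b hb a ha => by
    rcases hb with hb | hb
    · exact hAc _ ha _ hb
    · obtain ⟨c, rfl⟩ : ∃ c, b = y * c := ⟨y⁻¹ * b, by group⟩
      rw [inv_mul_cancel_left] at hb
      rw [← mul_assoc, hC hyC a ha, mul_assoc, hAc _ ha _ hb, mul_assoc]
  have hBy : ∀ b ∈ B, Commute y b := fun b hb => by
    rcases hb with hb | hb
    · exact (hC hyC b hb).symm
    · obtain ⟨c, rfl⟩ : ∃ c, b = y * c := ⟨y⁻¹ * b, by group⟩
      rw [inv_mul_cancel_left] at hb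
      exact (Commute.refl y).mul_right (hC hyC _ hb).symm
  have hmem : B ∈ {A : Subgroup S | A.Normal ∧ (∀ a ∈ A, ∀ b ∈ A, a * b = b * a) ∧ ∀ a ∈ A, a ^ 4 = 1} := by
    refine ⟨hBn, fun a ha b hb => ?_, fun a ha => ?_⟩
    · rcases ha with ha | ha
      · exact hBC b hb a ha
      · obtain ⟨c, rfl⟩ : ∃ c, a = y * c := ⟨y⁻¹ * a, by group⟩
        rw [inv_mul_cancel_left] at ha
        exact (Commute.mul_left (hBy b hb) (hBC b hb _ ha))
    · rcases ha with ha | ha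
      · exact hAe a ha
      · obtain ⟨c, rfl⟩ : ∃ c, a = y * c := ⟨y⁻¹ * a, by group⟩
        rw [inv_mul_cancel_left] at ha
        rw [(show Commute y c from (hC hyC _ ha).symm).mul_pow, hy4, hAe _ ha, one_mul]
  exact hyA (hAmax hmem hBA hyB)

variable {A : Subgroup S} (hA : Kernel A) (h2 : IsPGroup 2 S)
include hA h2

/-- An element of the centraliser inverted by an element which inverts only involutions of `A` squares to one. -/
theorem inverted_sq {g c : S} (hc : c ∈ Subgroup.centralizer (A : Set S))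
    (hreg : ∀ a ∈ A, g * a * g⁻¹ = a⁻¹ → a ^ 2 = 1) (h : g * c * g⁻¹ = c⁻¹) : c ∈ A ∧ c ^ 2 = 1 := by
  classical
  obtain ⟨n, hn⟩ := h2 c
  have hex : ∃ n, c ^ 2 ^ n = 1 := ⟨n, hn⟩
  have hs := Nat.find_spec hex
  rcases hf : Nat.find hex with _ | _ | m
  · rw [hf, pow_zero, pow_one] at hs; rw [hs]; exact ⟨A.one_mem, one_pow 2⟩
  · rw [hf, pow_one] at hs
    exact ⟨hA.self c hc (by rw [show (4 : ℕ) = 2 * 2 from rfl, pow_mul, hs, one_pow]), hs⟩
  · exfalso
    rw [hf] at hs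
    have h4 : (c ^ 2 ^ m) ^ 4 = 1 := by
      rw [← pow_mul, show 2 ^ m * 4 = 2 ^ (m + 1 + 1) by ring]; exact hs
    have hmem := hA.self _ (pow_mem hc _) h4
    have := hreg _ hmem (by rw [← conj_pow, h, inv_pow])
    rw [← pow_mul, show 2 ^ m * 2 = 2 ^ (m + 1) by ring] at this
    exact Nat.find_min hex (by omega) this

/-- An element of the centraliser fixed by an element fixing only involutions of `A` squares to one. -/
theorem fixed_sq {g c : S} (hc : c ∈ Subgroup.centralizer (A : Set S))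
    (hfix : ∀ a ∈ A, g * a * g⁻¹ = a → a ^ 2 = 1) (h : g * c * g⁻¹ = c) : c ∈ A ∧ c ^ 2 = 1 := by
  classical
  obtain ⟨n, hn⟩ := h2 c
  have hex : ∃ n, c ^ 2 ^ n = 1 := ⟨n, hn⟩
  have hs := Nat.find_spec hex
  rcases hf : Nat.find hex with _ | _ | m
  · rw [hf, pow_zero, pow_one] at hs; rw [hs]; exact ⟨A.one_mem, one_pow 2⟩
  · rw [hf, pow_one] at hs
    exact ⟨hA.self c hc (by rw [show (4 : ℕ) = 2 * 2 from rfl, pow_mul, hs, one_pow]), hs⟩
  · exfalso
    rw [hf] at hs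
    have h4 : (c ^ 2 ^ m) ^ 4 = 1 := by
      rw [← pow_mul, show 2 ^ m * 4 = 2 ^ (m + 1 + 1) by ring]; exact hs
    have hmem := hA.self _ (pow_mem hc _) h4
    have := hfix _ hmem (by rw [← conj_pow, h])
    rw [← pow_mul, show 2 ^ m * 2 = 2 ^ (m + 1) by ring] at this
    exact Nat.find_min hex (by omega) this

/-- Two elements of the centraliser with the same square differ by an involution of `A`. -/
theorem sq_inj {x y : S} (hx : x ∈ Subgroup.centralizer (A : Set S)) (hy : y ∈ Subgroup.centralizer (A : Set S))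
    (h : x ^ 2 = y ^ 2) : x⁻¹ * y ∈ A ∧ (x⁻¹ * y) ^ 2 = 1 := by
  refine inverted_sq hA h2 (g := x) (mul_mem (inv_mem hx) hy) (fun a ha e => ?_) ?_
  · rw [← Subgroup.mem_centralizer_iff.1 hx a ha, mul_inv_cancel_right] at e
    rw [sq]; nth_rewrite 2 [e]; exact mul_inv_cancel a
  · calc x * (x⁻¹ * y) * x⁻¹ = y * x⁻¹ := by group
      _ = y⁻¹ * (y ^ 2 * x⁻¹) := by group
      _ = y⁻¹ * (x ^ 2 * x⁻¹) := by rw [h]
      _ = (x⁻¹ * y)⁻¹ := by group

end Cfsg.Agent.TwoGroups.NormalRankTwo
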