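import Cfsg.Agent.TwoGroups.NormalRankTwo.Lifts

/-! An elementary abelian section, counted against the centraliser and the induced automorphisms. -/

set_option autoImplicit false
set_option linter.unusedSectionVars false

namespace Cfsg.Agent.TwoGroups.NormalRankTwo

variable {S : Type*} [Group S] [Finite S]

theorem card_map_mul {G X : Type*} [Group G] [Group X] (f : G →* X) (K : Subgroup G) :
    Nat.card (K.map f) * Nat.card (f.ker ⊓ K : Subgroup G) = Nat.card K := by
  have h := Subgroup.card_eq_card_quotient_mul_card_subgroup (f.comp K.subtype).ker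
  rw [Nat.card_congr (QuotientGroup.quotientKerEquivRange (f.comp K.subtype)).toEquiv, MonoidHom.range_comp,
    Subgroup.range_subtype] at h
  rw [h]
  congr 1
  refine Nat.card_congr ⟨fun x => ⟨⟨x.1, x.2.2⟩, x.2.1⟩, fun x => ⟨x.1.1, x.2, x.1.2⟩, fun x => rfl, fun x => rfl⟩

theorem exchange {G X Y : Type*} [Group G] [Finite G] [Group X] [Group Y] (f : G →* X) (g : G →* Y) :
    Nat.card g.range * Nat.card (g.ker.map f) = Nat.card f.range * Nat.card (f.ker.map g) := by
  have h1 := card_map_mul g ⊤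
  have h2 := card_map_mul f g.ker
  have h3 := card_map_mul f ⊤
  have h4 := card_map_mul g f.ker
  rw [← MonoidHom.range_eq_map, inf_top_eq] at h1 h3
  rw [inf_comm] at h4
  have hpos : 0 < Nat.card (f.ker ⊓ g.ker : Subgroup G) := Nat.card_pos
  refine Nat.eq_of_mul_eq_mul_right hpos ?_
  rw [mul_assoc, h2, mul_assoc, h4, h1, h3]

theorem card_le_range_mul {α β : Type*} [Finite α] (U : Subgroup S) (val : α → S) (hval : Function.Injective val)
    (F : α → β) (h : ∀ x y, F x = F y → (val x)⁻¹ * val y ∈ U) :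
    Nat.card α ≤ Nat.card (Set.range F) * Nat.card U := by
  classical
  rw [← Nat.card_prod]
  let rep : Set.range F → α := fun b => b.2.choose
  have hrep : ∀ b, F (rep b) = b.1 := fun b => b.2.choose_spec
  refine Nat.card_le_card_of_injective
    (fun x => (⟨F x, x, rfl⟩, ⟨(val (rep ⟨F x, x, rfl⟩))⁻¹ * val x, h _ _ (hrep _)⟩)) ?_
  intro x y e
  simp only [Prod.mk.injEq, Subtype.mk.injEq] at e
  have e' : rep ⟨F x, x, rfl⟩ = rep ⟨F y, y, rfl⟩ := congrArg rep e.1
  rw [e'] at e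
  exact hval (mul_left_cancel e.2)

theorem mul_self_of_exp_two {Q : Type*} [Group Q] (hQ : ∀ q : Q, q ^ 2 = 1) (a b : Q) : a * b = b * a := by
  have hi : ∀ q : Q, q⁻¹ = q := fun q => inv_eq_of_mul_eq_one_right (by rw [← pow_two]; exact hQ q)
  rw [← hi (a * b), mul_inv_rev, hi, hi]

theorem two_pow {Q : Type*} [Group Q] [Finite Q] (h : ∀ q : Q, q ^ 2 = 1) : ∃ k, Nat.card Q = 2 ^ k :=
  haveI : Fact (Nat.Prime 2) := ⟨Nat.prime_two⟩
  IsPGroup.iff_card.1 fun q => ⟨1, by rw [pow_one]; exact h q⟩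

namespace Setup

variable {A U : Subgroup S} (F : Setup A U) (a1 a2 : S) (H : Subgroup S)
variable {Q : Type*} [Group Q] (ψ : H →* Q)

/-- The part of `H` centralising the involutions of `A`. -/
abbrev part (U H : Subgroup S) : Subgroup S := H ⊓ Subgroup.centralizer (U : Set S)

/-- The section map on that part. -/
def sect (U : Subgroup S) : part U H →* Q := ψ.comp (Subgroup.inclusion inf_le_left)

include F

/-- The values at two generators, as a homomorphism. -/
def act (h1 : a1 ∈ A) (h2 : a2 ∈ A) : part U H →* S × S :=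
  MonoidHom.mk' (fun x => code a1 a2 x.1) fun x y => F.code_mul h1 h2 x.2.2 y.2.2

variable {a1 a2} (hgen : Gen A U a1 a2) (hQ : ∀ q : Q, q ^ 2 = 1)
include hgen

local notation "φ" => act F a1 a2 H hgen.mem1 hgen.mem2
local notation "ξ" => sect H ψ U

theorem mem_ker {x : part U H} (hx : x ∈ (φ).ker) : (x : S) ∈ Subgroup.centralizer (A : Set S) :=
  (F.code_one_iff hgen x.2.2).1 hx

include hQ

theorem card_ker_le :
    Nat.card (φ).ker ≤ Nat.card ((ξ).ker ⊓ (φ).ker : Subgroup (part U H)) * 4 := by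
  have h := card_le_range_mul U (fun x : (φ).ker => (x.1 : S)) (fun x y e => Subtype.ext (Subtype.ext e))
    (fun x => (⟨x.1 ^ 2, ⟨MonoidHom.mem_ker.2 (by rw [map_pow]; exact hQ _), pow_mem x.2 2⟩⟩ :
      ((ξ).ker ⊓ (φ).ker : Subgroup (part U H)))) fun x y e => by
        have e' : (x.1 : S) ^ 2 = (y.1 : S) ^ 2 := by
          have := congrArg (fun w : ((ξ).ker ⊓ (φ).ker : Subgroup (part U H)) => ((w : part U H) : S)) e
          simpa using this
        exact (F.mem _).2 (sq_inj F.ker F.two (F.mem_ker H hgen x.2) (F.mem_ker H hgen y.2) e')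
  exact h.trans (Nat.mul_le_mul (Nat.card_le_card_of_injective _ Subtype.val_injective) F.card_le)

theorem card_sect_ker : Nat.card ((φ).ker.map ξ) * Nat.card ((ξ).ker ⊓ (φ).ker : Subgroup (part U H)) =
    Nat.card (φ).ker := card_map_mul _ _

theorem card_P_le : Nat.card ((φ).ker.map ξ) ≤ 4 := by
  have := F.card_ker_le H ψ hgen hQ
  rw [← F.card_sect_ker H ψ hgen hQ, mul_comm] at this
  exact Nat.le_of_mul_le_mul_left this Nat.card_pos

/-- When the centraliser gives a section of order four, regular elements of `H` lift to involutions. -/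
theorem lift_of_four (hP : Nat.card ((φ).ker.map ξ) = 4) {z v : S} (hB : Big A U z v a1 a2) (x : part U H)
    (hr : Reg z v (code a1 a2 (x : S))) :
    ∃ t ∈ Subgroup.centralizer (U : Set S), t ^ 2 = 1 ∧ code a1 a2 t = code a1 a2 (x : S) := by
  classical
  set N := ((ξ).ker ⊓ (φ).ker : Subgroup (part U H)) with hN
  have hcomm := mul_self_of_exp_two hQ
  have hmem : ∀ d ∈ (φ).ker, x⁻¹ * d * x * d ∈ N := by
    intro d hd
    refine ⟨MonoidHom.mem_ker.2 ?_, MonoidHom.mem_ker.2 ?_⟩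
    · simp only [map_mul, map_inv]
      rw [hcomm (ξ x)⁻¹ (ξ d), inv_mul_cancel_right, ← pow_two, hQ]
    · have h1 : φ (x⁻¹ * d * x) = 1 := by simp [map_mul, MonoidHom.mem_ker.1 hd]
      rw [map_mul, h1, MonoidHom.mem_ker.1 hd, one_mul]
  have hle := card_le_range_mul U (fun d : (φ).ker => (d.1 : S)) (fun _ _ e => Subtype.ext (Subtype.ext e))
    (fun d => (⟨x⁻¹ * d.1 * x * d.1, hmem _ d.2⟩ : N)) fun e d heq => by
      have hd := F.mem_ker H hgen d.2
      have he := F.mem_ker H hgen e.2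
      have hh : ((x : S) * e.1) ∈ Subgroup.centralizer (U : Set S) := mul_mem x.2.2 (F.centralizer_le he)
      have hr' : Reg z v (code a1 a2 ((x : S) * e.1)) := by rwa [F.code_mul_left hB x.2.2 he]
      refine (F.mem _).2 (inverted_sq F.ker F.two (mul_mem (inv_mem he) hd) (F.reg_inverts hB hh hr') ?_)
      have heq' : (x : S)⁻¹ * (e.1 : S) * x * e.1 = (x : S)⁻¹ * d.1 * x * d.1 := by
        have := congrArg (fun w : N => ((w : part U H) : S)) heq
        simpa using this
      have k : (x : S)⁻¹ * ((e.1 : S)⁻¹ * d.1) * x = (e.1 : S) * (d.1 : S)⁻¹ := by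
        calc (x : S)⁻¹ * ((e.1 : S)⁻¹ * d.1) * x
            = ((x : S)⁻¹ * e.1 * x)⁻¹ * (((x : S)⁻¹ * d.1 * x * d.1) * (d.1 : S)⁻¹) := by group
          _ = ((x : S)⁻¹ * e.1 * x)⁻¹ * (((x : S)⁻¹ * e.1 * x * e.1) * (d.1 : S)⁻¹) := by rw [heq']
          _ = _ := by group
      calc (x : S) * e.1 * ((e.1 : S)⁻¹ * d.1) * ((x : S) * e.1)⁻¹
          = (x : S) * ((d.1 : S) * (e.1 : S)⁻¹) * (x : S)⁻¹ := by group
        _ = (x : S) * ((e.1 : S) * (d.1 : S)⁻¹)⁻¹ * (x : S)⁻¹ := by group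
        _ = (x : S) * ((x : S)⁻¹ * ((e.1 : S)⁻¹ * d.1) * x)⁻¹ * (x : S)⁻¹ := by rw [k]
        _ = _ := by group
  have hcard : Nat.card N * 4 ≤ Nat.card (Set.range fun d : (φ).ker => (⟨x⁻¹ * d.1 * x * d.1, hmem _ d.2⟩ : N)) * 4 := by
    have h := hle.trans (Nat.mul_le_mul_left _ F.card_le)
    have e := F.card_sect_ker H ψ hgen hQ
    rw [hP] at e
    rw [mul_comm, e]; exact h
  haveI := Fintype.ofFinite N
  have huniv : (Set.range fun d : (φ).ker => (⟨x⁻¹ * d.1 * x * d.1, hmem _ d.2⟩ : N)) = Set.univ := by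
    refine Set.eq_of_subset_of_ncard_le (Set.subset_univ _) ?_ (Set.toFinite _)
    rw [Set.ncard_univ, ← Nat.card_coe_set_eq]
    omega
  have hmm : ∀ r ∈ U, r * r = 1 := fun r hr => F.mul_self hr
  have hx2 : x ^ 2 ∈ N := by
    refine ⟨MonoidHom.mem_ker.2 (by rw [map_pow]; exact hQ _), MonoidHom.mem_ker.2 ?_⟩
    rw [map_pow, pow_two]
    exact Prod.ext (hmm _ (F.phi_mem x.2.2 hgen.mem1)) (hmm _ (F.phi_mem x.2.2 hgen.mem2))
  obtain ⟨d, hd⟩ := Set.eq_univ_iff_forall.1 huniv ⟨(x ^ 2)⁻¹, inv_mem hx2⟩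
  have hd' : (x : S)⁻¹ * d.1 * x * d.1 = ((x : S) ^ 2)⁻¹ := by
    have := congrArg (fun w : N => ((w : part U H) : S)) hd
    simpa using this
  have hdC := F.mem_ker H hgen d.2
  refine ⟨(x : S) * d.1, mul_mem x.2.2 (F.centralizer_le hdC), ?_, F.code_mul_left hB x.2.2 hdC⟩
  calc ((x : S) * d.1) ^ 2 = (x : S) ^ 2 * ((x : S)⁻¹ * d.1 * x * d.1) := by rw [pow_two, pow_two]; group
    _ = 1 := by rw [hd', mul_inv_cancel]

end Setup

end Cfsg.Agent.TwoGroups.NormalRankTwo
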