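import Cfsg.Agent.TwoGroups.NormalRankTwo.Basic

/-! The action on a maximal normal abelian subgroup of exponent four of the elements centralising its
involutions. -/

set_option autoImplicit false
set_option linter.unusedSectionVars false

namespace Cfsg.Agent.TwoGroups.NormalRankTwo

variable {S : Type*} [Group S] [Finite S]

/-- The standing hypotheses: `U` consists of the involutions of `A`, and normal elementary abelian subgroups
have order at most four. -/
structure Setup (A U : Subgroup S) : Prop where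
  ker : Kernel A
  two : IsPGroup 2 S
  mem : ∀ u, u ∈ U ↔ u ∈ A ∧ u ^ 2 = 1
  small : ∀ E : Subgroup S, E.Normal → (∀ a ∈ E, ∀ b ∈ E, a * b = b * a) → (∀ a ∈ E, a ^ 2 = 1) → Nat.card E ≤ 4

theorem exists_setup (h2 : IsPGroup 2 S)
    (h : ∀ E : Subgroup S, E.Normal → (∀ a ∈ E, ∀ b ∈ E, a * b = b * a) → (∀ a ∈ E, a ^ 2 = 1) → Nat.card E ≤ 4) :
    ∃ A U : Subgroup S, Setup A U := by
  obtain ⟨A, hA⟩ := exists_kernel h2
  refine ⟨A, { carrier := {u | u ∈ A ∧ u ^ 2 = 1}, one_mem' := ⟨A.one_mem, one_pow 2⟩, mul_mem' := ?_,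
               inv_mem' := ?_ }, hA, h2, fun u => Iff.rfl, h⟩
  · rintro a b ⟨ha, ha2⟩ ⟨hb, hb2⟩
    exact ⟨A.mul_mem ha hb, by rw [(show Commute a b from hA.comm a ha b hb).mul_pow, ha2, hb2, one_mul]⟩
  · rintro a ⟨ha, ha2⟩
    exact ⟨A.inv_mem ha, by rw [inv_pow, ha2, inv_one]⟩

/-- The commutator of `g` and `a`. -/
def phi (g a : S) : S := g * a * g⁻¹ * a⁻¹

theorem phi_conj (s g a : S) : phi (s * g * s⁻¹) (s * a * s⁻¹) = s * phi g a * s⁻¹ := by
  unfold phi; group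

namespace Setup

variable {A U : Subgroup S} (F : Setup A U)
include F

theorem le {u : S} (hu : u ∈ U) : u ∈ A := ((F.mem u).1 hu).1

theorem sq_eq {u : S} (hu : u ∈ U) : u ^ 2 = 1 := ((F.mem u).1 hu).2

theorem mul_self {u : S} (hu : u ∈ U) : u * u = 1 := by rw [← pow_two, F.sq_eq hu]

theorem inv_eq {u : S} (hu : u ∈ U) : u⁻¹ = u := inv_eq_of_mul_eq_one_right (F.mul_self hu)

theorem comm {u v : S} (hu : u ∈ U) (hv : v ∈ U) : u * v = v * u := F.ker.comm u (F.le hu) v (F.le hv)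

theorem conj_mem {u : S} (hu : u ∈ U) (s : S) : s * u * s⁻¹ ∈ U :=
  (F.mem _).2 ⟨F.ker.normal.conj_mem _ (F.le hu) s, by rw [conj_pow, F.sq_eq hu]; group⟩

theorem normal : U.Normal := ⟨fun _ hu s => F.conj_mem hu s⟩

theorem card_le : Nat.card U ≤ 4 := F.small U F.normal (fun _ ha _ hb => F.comm ha hb) (fun _ ha => F.sq_eq ha)

theorem sq_mem {a : S} (ha : a ∈ A) : a ^ 2 ∈ U :=
  (F.mem _).2 ⟨pow_mem ha 2, by rw [← pow_mul]; exact F.ker.exp a ha⟩

theorem fixes {g u : S} (hg : g ∈ Subgroup.centralizer (U : Set S)) (hu : u ∈ U) : g * u * g⁻¹ = u := by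
  rw [← Subgroup.mem_centralizer_iff.1 hg u hu, mul_inv_cancel_right]

theorem centralizer_le : Subgroup.centralizer (A : Set S) ≤ Subgroup.centralizer (U : Set S) :=
  Subgroup.centralizer_le fun _ hu => F.le hu

theorem phi_mem {g a : S} (hg : g ∈ Subgroup.centralizer (U : Set S)) (ha : a ∈ A) : phi g a ∈ U := by
  have h1 : g * a * g⁻¹ ∈ A := F.ker.normal.conj_mem _ ha g
  refine (F.mem _).2 ⟨A.mul_mem h1 (A.inv_mem ha), ?_⟩
  unfold phi
  rw [(show Commute (g * a * g⁻¹) a⁻¹ from F.ker.comm _ h1 _ (A.inv_mem ha)).mul_pow, conj_pow,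
    F.fixes hg (F.sq_mem ha), inv_pow, mul_inv_cancel]

theorem phi_mul_right {g a b : S} (ha : a ∈ A) (hb : b ∈ A) : phi g (a * b) = phi g a * phi g b := by
  have hb' : g * b * g⁻¹ * b⁻¹ ∈ A := A.mul_mem (F.ker.normal.conj_mem _ hb g) (A.inv_mem hb)
  unfold phi
  calc g * (a * b) * g⁻¹ * (a * b)⁻¹ = g * a * g⁻¹ * ((g * b * g⁻¹ * b⁻¹) * a⁻¹) := by group
    _ = g * a * g⁻¹ * (a⁻¹ * (g * b * g⁻¹ * b⁻¹)) := by rw [F.ker.comm _ hb' _ (A.inv_mem ha)]
    _ = _ := by group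

theorem phi_mul_left {g h a : S} (hg : g ∈ Subgroup.centralizer (U : Set S))
    (hh : h ∈ Subgroup.centralizer (U : Set S)) (ha : a ∈ A) : phi (g * h) a = phi g a * phi h a := by
  rw [F.comm (F.phi_mem hg ha) (F.phi_mem hh ha)]
  have := F.fixes hg (F.phi_mem hh ha)
  unfold phi at *
  calc g * h * a * (g * h)⁻¹ * a⁻¹ = (g * (h * a * h⁻¹ * a⁻¹) * g⁻¹) * (g * a * g⁻¹ * a⁻¹) := by group
    _ = _ := by rw [this]

theorem phi_involution {g u : S} (hg : g ∈ Subgroup.centralizer (U : Set S)) (hu : u ∈ U) : phi g u = 1 := by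
  unfold phi; rw [F.fixes hg hu, mul_inv_cancel]

theorem phi_congr {g a b : S} (hg : g ∈ Subgroup.centralizer (U : Set S)) (ha : a ∈ A) (hb : b ∈ A)
    (h : a * b ∈ U) : phi g a = phi g b := by
  have := F.phi_involution hg h
  rw [F.phi_mul_right ha hb, mul_eq_one_iff_eq_inv, F.inv_eq (F.phi_mem hg hb)] at this
  exact this

/-- Conjugation permutes the values. -/
theorem phi_conj_value {s g a : S} (hg : g ∈ Subgroup.centralizer (U : Set S)) (ha : a ∈ A)
    {b : S} (hb : b ∈ A) (h : s * a * s⁻¹ * b ∈ U) : phi (s * g * s⁻¹) b = s * phi g a * s⁻¹ := by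
  haveI := F.normal
  have hn : s * g * s⁻¹ ∈ Subgroup.centralizer (U : Set S) :=
    (inferInstance : (Subgroup.centralizer (U : Set S)).Normal).conj_mem _ hg s
  rw [← F.phi_congr hn (F.ker.normal.conj_mem _ ha s) hb h, phi_conj]

theorem sq_mul {g a : S} (hg : g ∈ Subgroup.centralizer (U : Set S)) (ha : a ∈ A) :
    (g * a) ^ 2 = g ^ 2 * (phi g a * a ^ 2) := by
  have hm := F.phi_mem hg ha
  have hfix : g⁻¹ * phi g a * g = phi g a := by
    calc g⁻¹ * phi g a * g = g⁻¹ * (g * phi g a * g⁻¹) * g := by rw [F.fixes hg hm]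
      _ = _ := by group
  have : g⁻¹ * a * g = phi g a * a := by
    calc g⁻¹ * a * g = (phi g a)⁻¹ * ((g⁻¹ * phi g a * g) * (g⁻¹ * a * g)) := by rw [hfix]; group
      _ = (phi g a)⁻¹ * (g⁻¹ * (phi g a * a) * g) := by group
      _ = (phi g a)⁻¹ * a := by unfold phi; group
      _ = _ := by rw [F.inv_eq hm]
  calc (g * a) ^ 2 = g ^ 2 * ((g⁻¹ * a * g) * a) := by rw [pow_two, pow_two]; group
    _ = _ := by rw [this, pow_two a]; group

end Setup

end Cfsg.Agent.TwoGroups.NormalRankTwo
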