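import Cfsg.Agent.TwoGroups.NormalRankTwo.Frame

/-! Involutions lifting the automorphisms of a homocyclic subgroup of type `(4, 4)`. -/

set_option autoImplicit false
set_option linter.unusedSectionVars false

namespace Cfsg.Agent.TwoGroups.NormalRankTwo

variable {S : Type*} [Group S] [Finite S]

/-- The values at two generators. -/
def code (a1 a2 g : S) : S × S := (phi g a1, phi g a2)

/-- `a1`, `a2` generate `A` modulo `U`. -/
structure Gen (A U : Subgroup S) (a1 a2 : S) : Prop where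
  mem1 : a1 ∈ A
  mem2 : a2 ∈ A
  span : ∀ a ∈ A, a ∈ U ∨ a * a1 ∈ U ∨ a * a2 ∈ U ∨ a * (a1 * a2) ∈ U

/-- `z` is central, `v` is another involution of `A`, both are squares in `A`. -/
structure Big (A U : Subgroup S) (z v a1 a2 : S) : Prop where
  mem1 : a1 ∈ A
  mem2 : a2 ∈ A
  sq1 : a1 ^ 2 = z
  sq2 : a2 ^ 2 = v
  ne1 : z ≠ 1
  ne2 : v ≠ 1
  ne : z ≠ v
  central : ∀ s : S, s * z * s⁻¹ = z

namespace Setup

variable {A U : Subgroup S} (F : Setup A U) {a1 a2 z v : S}
include F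

theorem code_mul (h1 : a1 ∈ A) (h2 : a2 ∈ A) {g h : S} (hg : g ∈ Subgroup.centralizer (U : Set S))
    (hh : h ∈ Subgroup.centralizer (U : Set S)) : code a1 a2 (g * h) = code a1 a2 g * code a1 a2 h := by
  simp only [code, Prod.mk_mul_mk, F.phi_mul_left hg hh h1, F.phi_mul_left hg hh h2]

theorem code_one_iff (hgen : Gen A U a1 a2) {g : S} (hg : g ∈ Subgroup.centralizer (U : Set S)) :
    code a1 a2 g = 1 ↔ g ∈ Subgroup.centralizer (A : Set S) := by
  constructor
  · intro h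
    simp only [code, Prod.mk_eq_one] at h
    have h12 : phi g (a1 * a2) = 1 := by rw [F.phi_mul_right hgen.mem1 hgen.mem2, h.1, h.2, one_mul]
    rw [Subgroup.mem_centralizer_iff]
    intro a ha
    have key : phi g a = 1 := by
      rcases hgen.span a ha with hu | hu | hu | hu
      · exact F.phi_involution hg hu
      · rw [F.phi_congr hg ha hgen.mem1 hu, h.1]
      · rw [F.phi_congr hg ha hgen.mem2 hu, h.2]
      · rw [F.phi_congr hg ha (A.mul_mem hgen.mem1 hgen.mem2) hu, h12]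
    unfold phi at key
    rw [mul_inv_eq_one, mul_inv_eq_iff_eq_mul] at key
    exact key.symm
  · intro h
    have e : ∀ a ∈ A, phi g a = 1 := fun a ha => by
      unfold phi; rw [← Subgroup.mem_centralizer_iff.1 h a ha]; group
    simp only [code, Prod.mk_eq_one]
    exact ⟨e _ hgen.mem1, e _ hgen.mem2⟩

theorem four {x y : S} (hx : x ∈ U) (hy : y ∈ U) (hx1 : x ≠ 1) (hy1 : y ≠ 1) (hxy : x ≠ y) {u : S} (hu : u ∈ U) :
    u = 1 ∨ u = x ∨ u = y ∨ u = x * y := by
  classical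
  haveI := Fintype.ofFinite U
  by_contra hcon
  push Not at hcon
  obtain ⟨h1, h2, h3, h4⟩ := hcon
  have hxy1 : x * y ≠ 1 := fun e => hxy (by rw [mul_eq_one_iff_eq_inv.1 e, F.inv_eq hy])
  have : ({1, x, y, x * y, u} : Finset S).card = 5 := by
    rw [Finset.card_insert_of_notMem, Finset.card_insert_of_notMem, Finset.card_insert_of_notMem,
      Finset.card_insert_of_notMem, Finset.card_singleton]
    · simp [h4.symm]
    · simp [h3.symm, hx1]
    · simp [hxy, h2.symm, hy1]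
    · simp [hx1.symm, hy1.symm, hxy1.symm, h1.symm]
  have hle := Finset.card_le_card (show ({1, x, y, x * y, u} : Finset S) ⊆ (U : Set S).toFinset from fun w hw => by
    simp only [Finset.mem_insert, Finset.mem_singleton] at hw
    rw [Set.mem_toFinset]
    rcases hw with rfl | rfl | rfl | rfl | rfl
    exacts [U.one_mem, hx, hy, U.mul_mem hx hy, hu])
  have := F.card_le
  rw [Nat.card_eq_fintype_card] at this
  simp only [Set.toFinset_card, SetLike.coe_sort_coe] at hle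
  omega

theorem mul_mem_of_sq_eq {a b : S} (ha : a ∈ A) (hb : b ∈ A) (h : a ^ 2 = b ^ 2) : a * b ∈ U :=
  (F.mem _).2 ⟨A.mul_mem ha hb, by
    rw [(show Commute a b from F.ker.comm a ha b hb).mul_pow, h, ← pow_add]; exact F.ker.exp b hb⟩

variable (hB : Big A U z v a1 a2)
include hB

theorem zmem : z ∈ U := hB.sq1 ▸ F.sq_mem hB.mem1

theorem vmem : v ∈ U := hB.sq2 ▸ F.sq_mem hB.mem2

theorem sq12 : (a1 * a2) ^ 2 = z * v := by
  rw [(show Commute a1 a2 from F.ker.comm _ hB.mem1 _ hB.mem2).mul_pow, hB.sq1, hB.sq2]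

theorem square_cases {a : S} (ha : a ∈ A) :
    a ^ 2 = 1 ∧ a ∈ U ∨ a ^ 2 = z ∧ a * a1 ∈ U ∨ a ^ 2 = v ∧ a * a2 ∈ U ∨ a ^ 2 = z * v ∧ a * (a1 * a2) ∈ U := by
  rcases F.four (F.zmem hB) (F.vmem hB) hB.ne1 hB.ne2 hB.ne (F.sq_mem ha) with e | e | e | e
  · exact Or.inl ⟨e, (F.mem a).2 ⟨ha, e⟩⟩
  · exact Or.inr (Or.inl ⟨e, F.mul_mem_of_sq_eq ha hB.mem1 (e.trans hB.sq1.symm)⟩)
  · exact Or.inr (Or.inr (Or.inl ⟨e, F.mul_mem_of_sq_eq ha hB.mem2 (e.trans hB.sq2.symm)⟩))
  · exact Or.inr (Or.inr (Or.inr ⟨e, F.mul_mem_of_sq_eq ha (A.mul_mem hB.mem1 hB.mem2)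
      (e.trans (F.sq12 hB).symm)⟩))

theorem gen : Gen A U a1 a2 := ⟨hB.mem1, hB.mem2, fun a ha => by
  rcases F.square_cases hB ha with h | h | h | h
  exacts [Or.inl h.2, Or.inr (Or.inl h.2), Or.inr (Or.inr (Or.inl h.2)), Or.inr (Or.inr (Or.inr h.2))]⟩

end Setup

/-- `1 + X` is injective. -/
def Reg (z v : S) (X : S × S) : Prop := X.1 ≠ z ∧ X.2 ≠ v ∧ X.1 * X.2 ≠ z * v

/-- `X` is injective. -/
def Inj (X : S × S) : Prop := X.1 ≠ 1 ∧ X.2 ≠ 1 ∧ X.1 * X.2 ≠ 1

namespace Setup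

variable {A U : Subgroup S} (F : Setup A U) {a1 a2 z v : S} (hB : Big A U z v a1 a2)
include F hB

theorem reg_inverts {g : S} (hg : g ∈ Subgroup.centralizer (U : Set S)) (hr : Reg z v (code a1 a2 g)) :
    ∀ a ∈ A, g * a * g⁻¹ = a⁻¹ → a ^ 2 = 1 := by
  intro a ha h
  have e : phi g a = a ^ 2 := by
    rw [← F.inv_eq (F.sq_mem ha), pow_two, mul_inv_rev]; unfold phi; rw [h]
  rcases F.square_cases hB ha with ⟨h', _⟩ | ⟨h', hu⟩ | ⟨h', hu⟩ | ⟨h', hu⟩
  · exact h'
  · exact absurd (show phi g a1 = z by rw [← F.phi_congr hg ha hB.mem1 hu, e, h']) hr.1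
  · exact absurd (show phi g a2 = v by rw [← F.phi_congr hg ha hB.mem2 hu, e, h']) hr.2.1
  · refine absurd (show phi g a1 * phi g a2 = z * v from ?_) hr.2.2
    rw [← F.phi_mul_right hB.mem1 hB.mem2, ← F.phi_congr hg ha (A.mul_mem hB.mem1 hB.mem2) hu, e, h']

theorem inj_fixes {g : S} (hg : g ∈ Subgroup.centralizer (U : Set S)) (hr : Inj (code a1 a2 g)) :
    ∀ a ∈ A, g * a * g⁻¹ = a → a ^ 2 = 1 := by
  intro a ha h
  have e : phi g a = 1 := by unfold phi; rw [h, mul_inv_cancel]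
  rcases F.square_cases hB ha with ⟨h', _⟩ | ⟨h', hu⟩ | ⟨h', hu⟩ | ⟨h', hu⟩
  · exact h'
  · exact absurd (show phi g a1 = 1 by rw [← F.phi_congr hg ha hB.mem1 hu, e]) hr.1
  · exact absurd (show phi g a2 = 1 by rw [← F.phi_congr hg ha hB.mem2 hu, e]) hr.2.1
  · refine absurd (show phi g a1 * phi g a2 = 1 from ?_) hr.2.2
    rw [← F.phi_mul_right hB.mem1 hB.mem2, ← F.phi_congr hg ha (A.mul_mem hB.mem1 hB.mem2) hu, e]

theorem code_mul_left {g a : S} (hg : g ∈ Subgroup.centralizer (U : Set S))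
    (ha : a ∈ Subgroup.centralizer (A : Set S)) : code a1 a2 (g * a) = code a1 a2 g := by
  rw [F.code_mul hB.mem1 hB.mem2 hg (F.centralizer_le ha), (F.code_one_iff (F.gen hB) (F.centralizer_le ha)).2 ha,
    mul_one]

theorem mem_centralizer_self {a : S} (ha : a ∈ A) : a ∈ Subgroup.centralizer (A : Set S) :=
  Subgroup.mem_centralizer_iff.2 fun b hb => F.ker.comm b hb a ha

/-- A regular element whose square is an involution of `A` can be corrected to an involution. -/
theorem adjust {g : S} (hg : g ∈ Subgroup.centralizer (U : Set S)) (hr : Reg z v (code a1 a2 g))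
    (h2 : g ^ 2 ∈ U) : ∃ a ∈ A, (g * a) ^ 2 = 1 := by
  have m1 := F.phi_mem hg hB.mem1
  have m2 := F.phi_mem hg hB.mem2
  have hz := F.zmem hB
  have hv := F.vmem hB
  suffices ∃ a ∈ A, phi g a * a ^ 2 = g ^ 2 by
    obtain ⟨a, ha, e⟩ := this
    exact ⟨a, ha, by rw [F.sq_mul hg ha, e, F.mul_self h2]⟩
  have ne : ∀ {p q : S}, p ∈ U → q ∈ U → p ≠ q → p * q ≠ 1 := fun hp hq h e =>
    h (by rw [mul_eq_one_iff_eq_inv.1 e, F.inv_eq hq])
  have hne : phi g a1 * z ≠ phi g a2 * v := fun e => hr.2.2 (by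
    change phi g a1 * phi g a2 = z * v
    have h3 : phi g a1 * z * z * phi g a2 = phi g a2 * v * z * phi g a2 := by rw [e]
    rw [mul_assoc (phi g a1) z z, F.mul_self hz, mul_one] at h3
    rw [h3, F.comm (U.mul_mem (U.mul_mem m2 hv) hz) m2, ← mul_assoc, ← mul_assoc, F.mul_self m2, one_mul,
      F.comm hv hz])
  rcases F.four (x := phi g a1 * z) (y := phi g a2 * v) (U.mul_mem m1 hz) (U.mul_mem m2 hv) (ne m1 hz hr.1)
    (ne m2 hv hr.2.1) hne h2 with e | e | e | e
  · exact ⟨1, A.one_mem, by rw [e, F.phi_involution hg U.one_mem]; simp⟩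
  · exact ⟨a1, hB.mem1, by rw [e, hB.sq1]⟩
  · exact ⟨a2, hB.mem2, by rw [e, hB.sq2]⟩
  · refine ⟨a1 * a2, A.mul_mem hB.mem1 hB.mem2, ?_⟩
    rw [e, F.phi_mul_right hB.mem1 hB.mem2, F.sq12 hB, mul_assoc, mul_assoc, ← mul_assoc (phi g a2),
      ← F.comm hz m2, mul_assoc]

theorem conj_v (s : S) : s * v * s⁻¹ = v ∨ s * v * s⁻¹ = z * v := by
  rcases F.four (F.zmem hB) (F.vmem hB) hB.ne1 hB.ne2 hB.ne (F.conj_mem (F.vmem hB) s) with e | e | e | e
  · exact absurd (conj_eq_one_iff.1 e) hB.ne2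
  · refine absurd ?_ hB.ne
    rw [← hB.central s] at e
    exact (mul_left_cancel (mul_right_cancel e)).symm
  · exact Or.inl e
  · exact Or.inr e

theorem conj_code_fst {g : S} (hg : g ∈ Subgroup.centralizer (U : Set S)) (s : S) :
    phi (s * g * s⁻¹) a1 = s * phi g a1 * s⁻¹ := by
  refine F.phi_conj_value hg hB.mem1 hB.mem1 (F.mul_mem_of_sq_eq (F.ker.normal.conj_mem _ hB.mem1 s) hB.mem1 ?_)
  rw [conj_pow, hB.sq1, hB.central]

theorem conj_code_snd {g : S} (hg : g ∈ Subgroup.centralizer (U : Set S)) {s : S} (hs : s * v * s⁻¹ = v) :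
    phi (s * g * s⁻¹) a2 = s * phi g a2 * s⁻¹ := by
  refine F.phi_conj_value hg hB.mem2 hB.mem2 (F.mul_mem_of_sq_eq (F.ker.normal.conj_mem _ hB.mem2 s) hB.mem2 ?_)
  rw [conj_pow, hB.sq2, hs]

theorem conj_code_snd' {g : S} (hg : g ∈ Subgroup.centralizer (U : Set S)) {s : S} (hs : s * v * s⁻¹ = z * v) :
    phi (s * g * s⁻¹) a2 = s * phi g a1 * s⁻¹ * (s * phi g a2 * s⁻¹) := by
  haveI := F.normal
  have hn : s * g * s⁻¹ ∈ Subgroup.centralizer (U : Set S) :=
    (inferInstance : (Subgroup.centralizer (U : Set S)).Normal).conj_mem _ hg s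
  have h12 : phi (s * g * s⁻¹) (a1 * a2) = s * phi g a2 * s⁻¹ := by
    refine F.phi_conj_value hg hB.mem2 (A.mul_mem hB.mem1 hB.mem2)
      (F.mul_mem_of_sq_eq (F.ker.normal.conj_mem _ hB.mem2 s) (A.mul_mem hB.mem1 hB.mem2) ?_)
    rw [conj_pow, hB.sq2, hs, F.sq12 hB]
  rw [F.phi_mul_right hB.mem1 hB.mem2, F.conj_code_fst hB hg] at h12
  rw [← h12, ← mul_assoc, F.mul_self (F.conj_mem (F.phi_mem hg hB.mem1) s), one_mul]

theorem code_transvection {g : S} (hg : g ∈ Subgroup.centralizer (U : Set S)) (hX : code a1 a2 g = (1, z)) (s : S) :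
    code a1 a2 (s * g * s⁻¹) = (1, z) := by
  simp only [code, Prod.mk.injEq] at hX ⊢
  refine ⟨by rw [F.conj_code_fst hB hg, hX.1]; group, ?_⟩
  rcases F.conj_v hB s with e | e
  · rw [F.conj_code_snd hB hg e, hX.2, hB.central]
  · rw [F.conj_code_snd' hB hg e, hX.1, hX.2, hB.central]; group

theorem code_central {g s : S} (hg : g ∈ Subgroup.centralizer (U : Set S))
    (hs : s ∈ Subgroup.centralizer (U : Set S)) : code a1 a2 (s * g * s⁻¹) = code a1 a2 g := by
  simp only [code]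
  rw [F.conj_code_fst hB hg, F.conj_code_snd hB hg (F.fixes hs (F.vmem hB)), F.fixes hs (F.phi_mem hg hB.mem1),
    F.fixes hs (F.phi_mem hg hB.mem2)]

/-- An involution with regular nontrivial image fixed by all elements gives a normal subgroup of order eight. -/
theorem false_of_fixed {t : S} (ht : t ∈ Subgroup.centralizer (U : Set S)) (ht2 : t ^ 2 = 1)
    (hr : Reg z v (code a1 a2 t)) (h1 : code a1 a2 t ≠ 1)
    (hfix : ∀ s : S, code a1 a2 (s * t * s⁻¹) = code a1 a2 t) : False := by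
  classical
  haveI := F.normal
  haveI := Fintype.ofFinite S
  have hT : (Subgroup.centralizer (U : Set S)).Normal := inferInstance
  have tt : t * t = 1 := by rw [← pow_two, ht2]
  have tinv : t⁻¹ = t := inv_eq_of_mul_eq_one_right tt
  have htu : ∀ u ∈ U, u * t = t * u := Subgroup.mem_centralizer_iff.1 ht
  let E : Subgroup S :=
    { carrier := {x | x ∈ U ∨ t * x ∈ U}
      one_mem' := Or.inl U.one_mem
      mul_mem' := by
        rintro a b (ha | ha) (hb | hb)
        · exact Or.inl (U.mul_mem ha hb)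
        · refine Or.inr ?_
          have := U.mul_mem ha hb
          rwa [← mul_assoc, htu a ha, mul_assoc] at this
        · exact Or.inr (by simpa [mul_assoc] using U.mul_mem ha hb)
        · refine Or.inl ?_
          have := U.mul_mem ha hb
          have e : t * a * (t * b) = a * b := by
            rw [← mul_assoc, htu _ ha, ← mul_assoc, tt, one_mul]
          rwa [e] at this
      inv_mem' := by
        rintro a (ha | ha)
        · exact Or.inl (U.inv_mem ha)
        · refine Or.inr ?_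
          have := U.inv_mem ha
          rw [show (t * a)⁻¹ = a⁻¹ * t by rw [mul_inv_rev, tinv]] at this
          rwa [show t * a⁻¹ = a⁻¹ * t by
            have e := htu _ this
            calc t * a⁻¹ = t * (a⁻¹ * t) * t := by rw [← mul_assoc, mul_assoc, tt, mul_one]
              _ = a⁻¹ * t * t * t := by rw [← e]
              _ = a⁻¹ * t := by rw [mul_assoc (a⁻¹ * t), tt, mul_one]] }
  have hUE : U ≤ E := fun u hu => Or.inl hu
  have htE : t ∈ E := Or.inr (by rw [tt]; exact U.one_mem)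
  have hts : ∀ s : S, s * t * s⁻¹ ∈ E := by
    intro s
    have hst : s * t * s⁻¹ ∈ Subgroup.centralizer (U : Set S) := hT.conj_mem _ ht s
    have hc : code a1 a2 (t * (s * t * s⁻¹)) = 1 := by
      rw [F.code_mul hB.mem1 hB.mem2 ht hst, hfix s, ← F.code_mul hB.mem1 hB.mem2 ht ht, tt,
        (F.code_one_iff (F.gen hB) (one_mem _)).2 (one_mem _)]
    have hcC := (F.code_one_iff (F.gen hB) (mul_mem ht hst)).1 hc
    have hinv : t * (t * (s * t * s⁻¹)) * t⁻¹ = (t * (s * t * s⁻¹))⁻¹ := by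
      rw [← mul_assoc t t, tt, one_mul, mul_inv_rev, show (s * t * s⁻¹)⁻¹ = s * t * s⁻¹ by
        rw [conj_inv, tinv]]
    exact Or.inr ((F.mem _).2 (inverted_sq F.ker F.two hcC (F.reg_inverts hB ht hr) hinv))
  have hEn : E.Normal := ⟨fun x hx s => by
    rcases hx with hx | hx
    · exact hUE (F.conj_mem hx s)
    · have := E.mul_mem (hts s) (hUE (F.conj_mem hx s))
      rwa [show s * t * s⁻¹ * (s * (t * x) * s⁻¹) = s * x * s⁻¹ by
        calc s * t * s⁻¹ * (s * (t * x) * s⁻¹) = s * (t * t) * x * s⁻¹ := by group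
          _ = _ := by rw [tt, mul_one]] at this⟩
  have hsplit : ∀ x ∈ E, ∃ u ∈ U, x = u ∨ x = t * u := fun x hx => by
    rcases hx with hx | hx
    · exact ⟨x, hx, Or.inl rfl⟩
    · exact ⟨t * x, hx, Or.inr (by rw [← mul_assoc, tt, one_mul])⟩
  have hEc : ∀ a ∈ E, ∀ b ∈ E, a * b = b * a := by
    intro a ha b hb
    obtain ⟨u, hu, ea⟩ := hsplit a ha
    obtain ⟨w, hw, eb⟩ := hsplit b hb
    rcases ea with ea | ea <;> rcases eb with eb | eb <;> rw [ea, eb]
    · exact F.comm hu hw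
    · exact ((show Commute u t from htu u hu).mul_right (F.comm hu hw)).eq
    · exact ((show Commute t w from (htu w hw).symm).mul_left (F.comm hu hw)).eq
    · exact (((Commute.refl t).mul_right (htu w hw).symm).mul_left
        ((show Commute u t from htu u hu).mul_right (F.comm hu hw))).eq
  have hEe : ∀ a ∈ E, a ^ 2 = 1 := by
    intro a ha
    obtain ⟨u, hu, rfl | rfl⟩ := hsplit a ha
    · exact F.sq_eq hu
    · rw [(show Commute t u from (htu u hu).symm).mul_pow, ht2, F.sq_eq hu, one_mul]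
  have hlt : U < E := lt_of_le_of_ne hUE fun e => h1 ((F.code_one_iff (F.gen hB) ht).2
    (F.mem_centralizer_self hB (F.le (e ▸ htE))))
  have hU4 : 4 ≤ Nat.card U := by
    haveI := Fintype.ofFinite U
    rw [Nat.card_eq_fintype_card]
    have hzv : z * v ≠ 1 := fun e => hB.ne (by rw [mul_eq_one_iff_eq_inv.1 e, F.inv_eq (F.vmem hB)])
    have : ({1, z, v, z * v} : Finset S).card = 4 := by
      rw [Finset.card_insert_of_notMem, Finset.card_insert_of_notMem, Finset.card_insert_of_notMem,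
        Finset.card_singleton]
      · simp [hB.ne1]
      · simp [hB.ne, hB.ne2]
      · simp [hB.ne1.symm, hB.ne2.symm, hzv.symm]
    have hle := Finset.card_le_card (show ({1, z, v, z * v} : Finset S) ⊆ (U : Set S).toFinset from fun w hw => by
      simp only [Finset.mem_insert, Finset.mem_singleton] at hw
      rw [Set.mem_toFinset]
      rcases hw with rfl | rfl | rfl | rfl
      exacts [U.one_mem, F.zmem hB, F.vmem hB, U.mul_mem (F.zmem hB) (F.vmem hB)])
    simp only [Set.toFinset_card, SetLike.coe_sort_coe] at hle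
    omega
  have := Set.ncard_lt_ncard (show (U : Set S) ⊂ (E : Set S) from hlt) (Set.toFinite _)
  rw [← Nat.card_coe_set_eq, ← Nat.card_coe_set_eq] at this
  have := F.small E hEn hEc hEe
  simp only [SetLike.coe_sort_coe] at *
  omega

/-- Not every automorphism is induced. -/
theorem not_full
    (hfull : ∀ p ∈ U, ∀ q ∈ U, ∃ g ∈ Subgroup.centralizer (U : Set S), code a1 a2 g = (p, q)) : False := by
  have hz := F.zmem hB
  have hv := F.vmem hB
  have hzvne : z * v ≠ 1 := fun e => hB.ne (by rw [mul_eq_one_iff_eq_inv.1 e, F.inv_eq hv])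
  have hzvz : z * v * z = v := by rw [F.comm (U.mul_mem hz hv) hz, ← mul_assoc, F.mul_self hz, one_mul]
  obtain ⟨w, hw, hwX⟩ := hfull (z * v) (U.mul_mem hz hv) z hz
  have hwr : Reg z v (code a1 a2 w) := by
    rw [hwX]
    refine ⟨fun e => hB.ne2 (mul_eq_left.1 e), hB.ne, ?_⟩
    change z * v * z ≠ z * v
    rw [hzvz]
    exact fun e => hB.ne1 (mul_eq_right.1 e.symm)
  have hwi : Inj (code a1 a2 w) := by
    rw [hwX]
    exact ⟨hzvne, hB.ne1, by change z * v * z ≠ 1; rw [hzvz]; exact hB.ne2⟩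
  have hwsq : w ^ 2 ∈ Subgroup.centralizer (A : Set S) := by
    refine (F.code_one_iff (F.gen hB) (pow_mem hw 2)).1 ?_
    rw [pow_two, F.code_mul hB.mem1 hB.mem2 hw hw, hwX, Prod.mk_mul_mk, F.mul_self (U.mul_mem hz hv), F.mul_self hz]
    rfl
  have hwU : w ^ 2 ∈ U := (F.mem _).2 (fixed_sq F.ker F.two hwsq (F.inj_fixes hB hw hwi) (by group))
  obtain ⟨a, ha, ht2⟩ := F.adjust hB hw hwr hwU
  have haC := F.mem_centralizer_self hB ha
  obtain ⟨g, hg, hgX⟩ := hfull 1 U.one_mem z hz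
  obtain ⟨t, ht, htX, ht2⟩ : ∃ t ∈ Subgroup.centralizer (U : Set S), code a1 a2 t = code a1 a2 w ∧ t ^ 2 = 1 :=
    ⟨w * a, mul_mem hw (F.centralizer_le haC), F.code_mul_left hB hw haC, ht2⟩
  have tt : t * t = 1 := by rw [← pow_two, ht2]
  have tinv : t⁻¹ = t := inv_eq_of_mul_eq_one_right tt
  haveI := F.normal
  have hgt : g * t * g⁻¹ ∈ Subgroup.centralizer (U : Set S) :=
    (inferInstance : (Subgroup.centralizer (U : Set S)).Normal).conj_mem _ ht g
  set c := t * (g * t * g⁻¹) with hcdef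
  have hcC : c ∈ Subgroup.centralizer (A : Set S) := by
    refine (F.code_one_iff (F.gen hB) (mul_mem ht hgt)).1 ?_
    rw [F.code_mul hB.mem1 hB.mem2 ht hgt, F.code_central hB ht hg, ← F.code_mul hB.mem1 hB.mem2 ht ht, tt,
      (F.code_one_iff (F.gen hB) (one_mem _)).2 (one_mem _)]
  have hinv : t * c * t⁻¹ = c⁻¹ := by
    rw [hcdef, ← mul_assoc t t, tt, one_mul, mul_inv_rev, show (g * t * g⁻¹)⁻¹ = g * t * g⁻¹ by
      rw [conj_inv, tinv]]
  have hcU : c ∈ U := (F.mem _).2 (inverted_sq F.ker F.two hcC (F.reg_inverts hB ht (htX ▸ hwr)) hinv)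
  obtain ⟨b, hb, hbc⟩ : ∃ b ∈ A, phi t b = c := by
    have hi : Inj (code a1 a2 t) := htX ▸ hwi
    rcases F.four (F.phi_mem ht hB.mem1) (F.phi_mem ht hB.mem2) hi.1 hi.2.1
      (fun e => hi.2.2 (by change phi t a1 * phi t a2 = 1; rw [e, F.mul_self (F.phi_mem ht hB.mem2)])) hcU
      with e | e | e | e
    · exact ⟨1, A.one_mem, by rw [e, F.phi_involution ht U.one_mem]⟩
    · exact ⟨a1, hB.mem1, e.symm⟩
    · exact ⟨a2, hB.mem2, e.symm⟩
    · exact ⟨a1 * a2, A.mul_mem hB.mem1 hB.mem2, by rw [F.phi_mul_right hB.mem1 hB.mem2, e]⟩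
  have hbC := F.mem_centralizer_self hB hb
  have hg' : g * b ∈ Subgroup.centralizer (U : Set S) := mul_mem hg (F.centralizer_le hbC)
  have hg'X : code a1 a2 (g * b) = (1, z) := by rw [F.code_mul_left hB hg hbC, hgX]
  have hcomm : g * b * t * (g * b)⁻¹ = t := by
    have h1 : b * t * b⁻¹ = c * t := by
      have e : t * b⁻¹ * t⁻¹ = b⁻¹ * (phi t b)⁻¹ := by unfold phi; group
      calc b * t * b⁻¹ = b * (t * b⁻¹ * t⁻¹) * t := by group
        _ = (phi t b)⁻¹ * t := by rw [e]; group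
        _ = c * t := by rw [hbc, F.inv_eq hcU]
    have hh : g * t * g⁻¹ * (g * t * g⁻¹) = 1 := by rw [← pow_two, conj_pow, ht2, mul_one, mul_inv_cancel]
    calc g * b * t * (g * b)⁻¹ = g * (b * t * b⁻¹) * g⁻¹ := by group
      _ = (g * c * g⁻¹) * (g * t * g⁻¹) := by rw [h1]; group
      _ = t := by rw [F.fixes hg hcU, hcdef, mul_assoc, hh, mul_one]
  have hsqC : (g * b) ^ 2 ∈ Subgroup.centralizer (A : Set S) := by
    refine (F.code_one_iff (F.gen hB) (pow_mem hg' 2)).1 ?_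
    rw [pow_two, F.code_mul hB.mem1 hB.mem2 hg' hg', hg'X, Prod.mk_mul_mk, one_mul, F.mul_self hz]
    rfl
  have hgU : (g * b) ^ 2 ∈ U := (F.mem _).2 (fixed_sq F.ker F.two hsqC (F.inj_fixes hB ht (htX ▸ hwi)) (by
    have hc : Commute t (g * b) := (mul_inv_eq_iff_eq_mul.1 hcomm).symm
    rw [(hc.pow_right 2).eq, mul_inv_cancel_right]))
  have hr : Reg z v (code a1 a2 (g * b)) := by
    rw [hg'X]
    refine ⟨hB.ne1.symm, hB.ne, ?_⟩
    change 1 * z ≠ z * v
    rw [one_mul]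
    exact fun e => hB.ne2 (mul_eq_left.1 e.symm)
  obtain ⟨d, hd, hd2⟩ := F.adjust hB hg' hr hgU
  have hdC := F.mem_centralizer_self hB hd
  have hX : code a1 a2 (g * b * d) = (1, z) := by rw [F.code_mul_left hB hg' hdC, hg'X]
  refine F.false_of_fixed hB (mul_mem hg' (F.centralizer_le hdC)) hd2 (by rw [hX]; exact hg'X ▸ hr)
    (by rw [hX]; exact fun e => hB.ne1 (Prod.mk_eq_one.1 e).2)
    fun s => by rw [hX]; exact F.code_transvection hB (mul_mem hg' (F.centralizer_le hdC)) hX s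

end Setup

end Cfsg.Agent.TwoGroups.NormalRankTwo
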